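import Mathlib
import Cfsg.Agent.Lib.GroupB.Coprime
import Cfsg.Agent.Lib.GroupB.MinimalAction

/-!
# When all maximal invariant subgroups are conjugate
-/

set_option autoImplicit false
set_option linter.style.haveILetI false

namespace CfsgLib.GroupB.MaxInvariant

open scoped Pointwise commutatorElement

universe u v

variable {A : Type u} {G : Type v} [Group A] [Finite A] [Group G] [Finite G] [MulDistribMulAction A G]

/-- Invariance. -/
def Inv (A : Type u) {G : Type v} [Group A] [Group G] [MulDistribMulAction A G] (M : Subgroup G) : Prop :=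
  ∀ a : A, ∀ x ∈ M, a • x ∈ M

/-- A maximal invariant subgroup. -/
def MaxInv (A : Type u) {G : Type v} [Group A] [Group G] [MulDistribMulAction A G] (M : Subgroup G) : Prop :=
  M ≠ ⊤ ∧ (∀ a : A, ∀ x ∈ M, a • x ∈ M) ∧ ∀ L : Subgroup G, M < L → (∀ a : A, ∀ x ∈ L, a • x ∈ L) → L = ⊤

theorem exists_maxInv {L : Subgroup G} (hL : L ≠ ⊤) (hLi : Inv A L) : ∃ M, L ≤ M ∧ MaxInv A M := by
  obtain ⟨M, hLM, hM⟩ := Finite.exists_le_maximal (p := fun M : Subgroup G => M ≠ ⊤ ∧ Inv A M) ⟨hL, hLi⟩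
  refine ⟨M, hLM, hM.prop.1, hM.prop.2, fun K hK hKi => ?_⟩
  by_contra hne
  exact hK.not_ge (hM.2 ⟨hne, hKi⟩ hK.le)

theorem frattini_inv : Inv A (frattini G) := by
  intro a x hx
  have h := (Subgroup.characteristic_iff_map_eq.mp (frattini_characteristic (G := G)))
    (MulDistribMulAction.toMulEquiv G a)
  rw [← h]
  exact ⟨x, hx, rfl⟩

theorem frattini_le {M : Subgroup G} (hM : MaxInv A M) : frattini G ≤ M := by
  by_contra hle
  haveI : (frattini G).Characteristic := frattini_characteristic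
  have hsup : ∀ a : A, ∀ x ∈ M ⊔ frattini G, a • x ∈ M ⊔ frattini G := by
    intro a x hx
    obtain ⟨m, hm, f, hf, rfl⟩ := Subgroup.mem_sup_of_normal_right.mp hx
    rw [smul_mul']
    exact Subgroup.mul_mem_sup (hM.2.1 a m hm) (frattini_inv a f hf)
  exact hM.1 (frattini_nongenerating (hM.2.2 _ (lt_of_le_of_ne le_sup_left fun e => hle (le_sup_right.trans e.ge)) hsup))

theorem exists_invariant_sylow (hcop : (Nat.card A).Coprime (Nat.card G))
    (hsol : Group.IsSolvable A ∨ Group.IsSolvable G) (p : ℕ) [Fact p.Prime] :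
    ∃ P : Subgroup G, Nat.card P = p ^ (Nat.card G).factorization p ∧ Inv A P := by
  let φ : A →* MulAut G := MulDistribMulAction.toMulAut A G
  haveI : Finite (SemidirectProduct G A φ) := Finite.of_equiv _ SemidirectProduct.equivProd.symm
  let ι : G →* (SemidirectProduct G A φ) := SemidirectProduct.inl
  let κ : A →* (SemidirectProduct G A φ) := SemidirectProduct.inr
  have hιinj : Function.Injective ι := SemidirectProduct.inl_injective
  have hconj : ∀ (a : A) (g : G), κ a * ι g * (κ a)⁻¹ = ι (a • g) := fun a g => by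
    show κ a * ι g * (κ a)⁻¹ = ι (φ a g)
    rw [← map_inv]; exact (SemidirectProduct.inl_aut a g).symm
  haveI hGN : (ι.range).Normal := by
    rw [show ι.range = (SemidirectProduct.rightHom : (SemidirectProduct G A φ) →* A).ker from
      SemidirectProduct.range_inl_eq_ker_rightHom]
    infer_instance
  have hcardG : Nat.card ι.range = Nat.card G := Nat.card_congr (MonoidHom.ofInjective hιinj).toEquiv.symm
  have hcardA : Nat.card κ.range = Nat.card A :=
    Nat.card_congr (MonoidHom.ofInjective (SemidirectProduct.inr_injective (φ := φ))).toEquiv.symm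
  have hsol' : Group.IsSolvable ι.range ∨ Group.IsSolvable κ.range := by
    rcases hsol with h | h
    · haveI := h
      exact Or.inr (solvable_of_surjective (f := κ.rangeRestrict) κ.rangeRestrict_surjective)
    · haveI := h
      exact Or.inl (solvable_of_surjective (f := ι.rangeRestrict) ι.rangeRestrict_surjective)
  have hAG : κ.range ≤ Subgroup.normalizer (ι.range : Set (SemidirectProduct G A φ)) := by
    rw [Subgroup.normalizer_eq_top]; exact le_top
  obtain ⟨⟨P, hP, hPA⟩, -⟩ := CfsgLib.GroupB.Coprime.invariant_sylow hAG (by rw [hcardA, hcardG]; exact hcop) hsol' p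
  refine ⟨P.comap ι, ?_, fun a x hx => ?_⟩
  · have h2 := Subgroup.card_map_of_injective (K := P.comap ι) hιinj
    rw [Subgroup.map_comap_eq, inf_eq_right.mpr hP.1] at h2
    rw [← h2, hP.2, hcardG]
  · show ι (a • x) ∈ P
    rw [← hconj]
    exact (Subgroup.mem_normalizer_iff.mp (hPA ⟨a, rfl⟩) (ι x)).mp hx

theorem pGroup_of_conj (hcop : (Nat.card A).Coprime (Nat.card G)) (hsol : Group.IsSolvable A ∨ Group.IsSolvable G)
    (h : ∀ M N : Subgroup G, MaxInv A M → MaxInv A N → ∃ c : G, (∀ a : A, a • c = c) ∧ N = MulAut.conj c • M) :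
    ∃ p : ℕ, p.Prime ∧ IsPGroup p G := by
  by_contra hno
  push Not at hno
  have key : ∀ p : ℕ, p.Prime → ∃ M : Subgroup G, MaxInv A M ∧ p ^ (Nat.card G).factorization p ∣ Nat.card M := by
    intro p hp
    haveI := Fact.mk hp
    obtain ⟨P, hP, hPi⟩ := exists_invariant_sylow hcop hsol p
    have hne : P ≠ ⊤ := fun e => hno p hp (IsPGroup.of_card (n := (Nat.card G).factorization p) (by
      rw [← hP, e, Subgroup.card_top]))
    obtain ⟨M, hPM, hM⟩ := exists_maxInv hne hPi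
    exact ⟨M, hM, hP ▸ Subgroup.card_dvd_of_le hPM⟩
  obtain ⟨M₀, hM₀, -⟩ := key 2 Nat.prime_two
  have hdvd : Nat.card G ∣ Nat.card M₀ := by
    rw [← Nat.factorization_le_iff_dvd Nat.card_pos.ne' Nat.card_pos.ne']
    intro q
    by_cases hq : q.Prime
    · obtain ⟨M, hM, hd⟩ := key q hq
      obtain ⟨c, -, hc⟩ := h M₀ M hM₀ hM
      rw [hc, ← Nat.card_congr (Subgroup.equivSMul (MulAut.conj c) M₀).toEquiv] at hd
      exact (hq.pow_dvd_iff_le_factorization Nat.card_pos.ne').mp hd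
    · simp [Nat.factorization_eq_zero_of_not_prime _ hq]
  exact hM₀.1 (Subgroup.eq_top_of_card_eq _ (Nat.dvd_antisymm (Subgroup.card_subgroup_dvd_card _) hdvd))

theorem maxInv_normal {p : ℕ} [Fact p.Prime] (hG : IsPGroup p G) {M : Subgroup G} (hM : MaxInv A M) : M.Normal :=
  ⟨fun m hm g => by
    rw [show g * m * g⁻¹ = ⁅g, m⁆ * m by rw [commutatorElement_def]; group]
    exact M.mul_mem (frattini_le hM ((CfsgLib.GroupB.MinimalAction.frattini_facts hG).1
      (Subgroup.commutator_mem_commutator trivial trivial))) hm⟩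

theorem eq_frattini_of_unique {p : ℕ} [Fact p.Prime] (hG : IsPGroup p G) (hcop : (Nat.card A).Coprime (Nat.card G))
    {M : Subgroup G} (hM : MaxInv A M) (huniq : ∀ N, MaxInv A N → N = M) : M = frattini G := by
  classical
  haveI : Fintype A := Fintype.ofFinite _
  obtain ⟨hΦc, hΦp⟩ := CfsgLib.GroupB.MinimalAction.frattini_facts hG
  refine le_antisymm ?_ (frattini_le hM)
  by_contra hle
  set Φ := frattini G with hΦ
  have hcomm : ∀ x y : G, ⁅x, y⁆ ∈ Φ := fun x y => hΦc (Subgroup.commutator_mem_commutator trivial trivial)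
  have normal_of : ∀ K : Subgroup G, Φ ≤ K → K.Normal := fun K hK => ⟨fun k hk g => by
    rw [show g * k * g⁻¹ = ⁅g, k⁆ * k by rw [commutatorElement_def]; group]
    exact K.mul_mem (hK (hcomm g k)) hk⟩
  -- a complement modulo the Frattini subgroup
  obtain ⟨L₀, ⟨hΦL, hML⟩, hmax⟩ := (Set.toFinite {L : Subgroup G | Φ ≤ L ∧ L ⊓ M ≤ Φ}).exists_maximal
    ⟨Φ, le_rfl, inf_le_left⟩
  haveI hL₀n := normal_of L₀ hΦL
  haveI hΦn := normal_of Φ le_rfl
  have hsup : L₀ ⊔ M = ⊤ := by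
    rw [eq_top_iff]
    intro g _
    by_contra hg
    have hgL : g ∉ L₀ := fun h => hg (Subgroup.mem_sup_left h)
    refine hgL (hmax ⟨hΦL.trans le_sup_left, ?_⟩ le_sup_left (Subgroup.mem_sup_right (Subgroup.mem_zpowers g)))
    rintro z ⟨hz1, hz2⟩
    obtain ⟨l, hl, v, hv, rfl⟩ := Subgroup.mem_sup_of_normal_left.mp hz1
    obtain ⟨k, rfl⟩ := Subgroup.mem_zpowers_iff.mp hv
    have hp0 : (p : ℤ) ≠ 0 := Int.natCast_ne_zero.mpr (Fact.out : p.Prime).ne_zero
    by_cases hk : (p : ℤ) ∣ k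
    · obtain ⟨j, rfl⟩ := hk
      refine hML ⟨L₀.mul_mem hl ?_, hz2⟩
      rw [zpow_mul, zpow_natCast]
      exact L₀.zpow_mem (hΦL (hΦp g)) j
    · exfalso
      apply hg
      obtain ⟨a, b, hab⟩ := ((Nat.prime_iff_prime_int.mp (Fact.out : p.Prime)).coprime_iff_not_dvd.mpr hk)
      have hgk : g ^ k ∈ L₀ ⊔ M := by
        rw [show g ^ k = l⁻¹ * (l * g ^ k) by group]
        exact (L₀ ⊔ M).mul_mem (Subgroup.mem_sup_left (L₀.inv_mem hl)) (Subgroup.mem_sup_right hz2)
      have hgp : g ^ (p : ℤ) ∈ L₀ ⊔ M := by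
        rw [zpow_natCast]; exact Subgroup.mem_sup_left (hΦL (hΦp g))
      have e : g = (g ^ (p : ℤ)) ^ a * (g ^ k) ^ b := by
        rw [← zpow_mul, ← zpow_mul, ← zpow_add, mul_comm (p : ℤ), mul_comm k, hab, zpow_one]
      rw [e]
      exact (L₀ ⊔ M).mul_mem ((L₀ ⊔ M).zpow_mem hgp a) ((L₀ ⊔ M).zpow_mem hgk b)
  haveI hΦMn : (Φ.subgroupOf M).Normal := inferInstance
  letI : CommGroup (M ⧸ Φ.subgroupOf M) :=
    { (inferInstance : Group (M ⧸ Φ.subgroupOf M)) with
      mul_comm := by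
        rintro ⟨x⟩ ⟨y⟩
        refine QuotientGroup.eq.mpr (Subgroup.mem_subgroupOf.mpr ?_)
        have e : (((x * y)⁻¹ * (y * x) : M) : G) = ⁅(y : G)⁻¹, (x : G)⁻¹⁆ := by
          push_cast; rw [commutatorElement_def]; group
        rw [e]; exact hcomm _ _ }
  let j : M ⧸ Φ.subgroupOf M →* G ⧸ L₀ := QuotientGroup.map _ L₀ M.subtype (fun x hx => hΦL hx)
  have hj : Function.Bijective j := by
    constructor
    · rw [← MonoidHom.ker_eq_bot_iff, eq_bot_iff]
      rintro ⟨x⟩ hx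
      have hxL : (x : G) ∈ L₀ := (QuotientGroup.eq_one_iff (x : G)).mp hx
      exact (QuotientGroup.eq_one_iff x).mpr (Subgroup.mem_subgroupOf.mpr (hML ⟨hxL, x.2⟩))
    · rintro ⟨g⟩
      obtain ⟨l, hl, m, hm, rfl⟩ := Subgroup.mem_sup_of_normal_left.mp (hsup.ge (Subgroup.mem_top g))
      refine ⟨QuotientGroup.mk ⟨m, hm⟩, QuotientGroup.eq.mpr ?_⟩
      show m⁻¹ * (l * m) ∈ L₀
      simpa [mul_assoc] using hL₀n.conj_mem l hl m⁻¹
  let π₀ : G →* M ⧸ Φ.subgroupOf M := (MulEquiv.ofBijective j hj).symm.toMonoidHom.comp (QuotientGroup.mk' L₀)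
  have hπ₀ : ∀ m : M, π₀ (m : G) = QuotientGroup.mk m := fun m => (MulEquiv.ofBijective j hj).symm_apply_apply (QuotientGroup.mk m)
  let act : A → M ⧸ Φ.subgroupOf M →* M ⧸ Φ.subgroupOf M := fun a =>
    QuotientGroup.map _ _
      (((MulDistribMulAction.toMonoidHom G a).comp M.subtype).codRestrict M (fun m => hM.2.1 a m m.2))
      (fun x hx => Subgroup.mem_comap.mpr (Subgroup.mem_subgroupOf.mpr (frattini_inv a (x : G) hx)))
  let ψ : G →* M ⧸ Φ.subgroupOf M :=
    MonoidHom.mk' (fun g => ∏ a : A, act a (π₀ (a⁻¹ • g))) fun g h => by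
      simp only [smul_mul', map_mul, Finset.prod_mul_distrib]
  have hactmk : ∀ (a : A) (m : M), act a (QuotientGroup.mk m) = QuotientGroup.mk ⟨a • (m : G), hM.2.1 a m m.2⟩ :=
    fun a m => rfl
  have hact : ∀ (a b : A) (x : M ⧸ Φ.subgroupOf M), act a (act b x) = act (a * b) x := by
    rintro a b ⟨m⟩
    show act a (act b (QuotientGroup.mk m)) = act (a * b) (QuotientGroup.mk m)
    rw [hactmk, hactmk, hactmk]
    exact congrArg _ (Subtype.ext (mul_smul a b (m : G)).symm)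
  have hψ : ∀ (b : A) (g : G), ψ (b • g) = act b (ψ g) := by
    intro b g
    show ∏ a : A, act a (π₀ (a⁻¹ • b • g)) = act b (∏ a : A, act a (π₀ (a⁻¹ • g)))
    rw [map_prod, ← Equiv.prod_comp (Equiv.mulLeft b) (fun a => act a (π₀ (a⁻¹ • b • g)))]
    refine Finset.prod_congr rfl fun a _ => ?_
    simp only [Equiv.coe_mulLeft, hact, smul_smul, mul_inv_rev, mul_assoc, inv_mul_cancel, mul_one]
  have hψM : ∀ m : M, ψ (m : G) = QuotientGroup.mk m ^ Nat.card A := by
    intro m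
    show ∏ a : A, act a (π₀ (a⁻¹ • (m : G))) = _
    have e : ∀ a : A, act a (π₀ (a⁻¹ • (m : G))) = QuotientGroup.mk m := fun a => by
      rw [show a⁻¹ • (m : G) = ((⟨a⁻¹ • (m : G), hM.2.1 a⁻¹ m m.2⟩ : M) : G) from rfl, hπ₀, hactmk]
      exact congrArg _ (Subtype.ext (smul_inv_smul a (m : G)))
    simp only [e, Finset.prod_const, Finset.card_univ, Nat.card_eq_fintype_card]
  have hψMz : ∀ m : M, ψ (m : G) = 1 → (m : G) ∈ Φ := by
    intro m hm
    rw [hψM] at hm
    refine Subgroup.mem_subgroupOf.mp ((QuotientGroup.eq_one_iff m).mp (orderOf_eq_one_iff.mp ?_))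
    refine Nat.Coprime.eq_one_of_dvd (hcop.symm.coprime_dvd_left ?_) (orderOf_dvd_of_pow_eq_one hm)
    exact (orderOf_map_dvd (QuotientGroup.mk' (Φ.subgroupOf M)) m).trans
      ((orderOf_dvd_natCard m).trans (Subgroup.card_subgroup_dvd_card M))
  have hΦψ : Φ ≤ ψ.ker := fun f hf => by
    rw [MonoidHom.mem_ker, show ψ f = ψ ((⟨f, frattini_le hM hf⟩ : M) : G) from rfl, hψM,
      (QuotientGroup.eq_one_iff _).mpr (Subgroup.mem_subgroupOf.mpr hf), one_pow]
  have hkt : ψ.ker ≠ ⊤ := by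
    intro e
    exact hle fun m hm => hψMz ⟨m, hm⟩ ((e.ge (Subgroup.mem_top m) : m ∈ ψ.ker))
  have hkinv : Inv A ψ.ker := fun a x hx => by
    rw [MonoidHom.mem_ker, hψ, (MonoidHom.mem_ker).mp hx, map_one]
  obtain ⟨N, hkN, hN⟩ := exists_maxInv hkt hkinv
  rw [huniq N hN] at hkN
  have hkΦ : ψ.ker = Φ := le_antisymm (fun x hx => hψMz ⟨x, hkN hx⟩ hx) hΦψ
  have h1 : Nat.card G = Nat.card Φ * Nat.card ψ.range := by
    rw [← Subgroup.index_ker, hkΦ, Subgroup.card_mul_index]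
  have h2 : Nat.card ψ.range ≤ Φ.relIndex M := by
    rw [Subgroup.relIndex, Subgroup.index_eq_card]; exact Subgroup.card_le_card_group _
  have h3 : Nat.card Φ * Φ.relIndex M = Nat.card M := by
    rw [Subgroup.relIndex, ← Nat.card_congr (Subgroup.subgroupOfEquivOfLe (frattini_le hM)).toEquiv, Subgroup.card_mul_index]
  have h4 : Nat.card G ≤ Nat.card M := by rw [h1, ← h3]; exact Nat.mul_le_mul_left _ h2
  exact hM.1 (Subgroup.eq_top_of_le_card _ h4)

theorem main (hcop : (Nat.card A).Coprime (Nat.card G)) (hsol : Group.IsSolvable A ∨ Group.IsSolvable G) :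
    ((∀ M N : Subgroup G, MaxInv A M → MaxInv A N → ∃ c : G, (∀ a : A, a • c = c) ∧ N = MulAut.conj c • M) ↔
      ((∃ p : ℕ, p.Prime ∧ IsPGroup p G) ∧ ∀ L : Subgroup G, frattini G < L → (∀ a : A, ∀ x ∈ L, a • x ∈ L) → L = ⊤)) ∧
    (((∃ p : ℕ, p.Prime ∧ IsPGroup p G) ∧ ∀ L : Subgroup G, frattini G < L → (∀ a : A, ∀ x ∈ L, a • x ∈ L) → L = ⊤) →
      ∀ M : Subgroup G, MaxInv A M ↔ (M = frattini G ∧ M ≠ ⊤)) := by
  have hsec : ((∃ p : ℕ, p.Prime ∧ IsPGroup p G) ∧ ∀ L : Subgroup G, frattini G < L → (∀ a : A, ∀ x ∈ L, a • x ∈ L) → L = ⊤) →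
      ∀ M : Subgroup G, MaxInv A M ↔ (M = frattini G ∧ M ≠ ⊤) := by
    rintro ⟨-, hL⟩ M
    constructor
    · intro hM
      refine ⟨?_, hM.1⟩
      by_contra hne
      exact hM.1 (hL M (lt_of_le_of_ne (frattini_le hM) (Ne.symm hne)) hM.2.1)
    · rintro ⟨rfl, hne⟩
      exact ⟨hne, frattini_inv, hL⟩
  refine ⟨⟨fun h => ?_, fun h M N hM hN => ⟨1, fun a => smul_one a, ?_⟩⟩, hsec⟩
  · obtain ⟨p, hp, hG⟩ := pGroup_of_conj hcop hsol h
    haveI := Fact.mk hp
    refine ⟨⟨p, hp, hG⟩, fun L hL hLi => ?_⟩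
    by_contra hne
    obtain ⟨M, hLM, hM⟩ := exists_maxInv hne hLi
    have huniq : ∀ N, MaxInv A N → N = M := fun N hN => by
      obtain ⟨c, -, hc⟩ := h M N hM hN
      haveI := maxInv_normal hG hM
      rw [hc]
      exact Subgroup.Normal.conjAct inferInstance (ConjAct.toConjAct c)
    exact (hL.trans_le hLM).ne (eq_frattini_of_unique hG hcop hM huniq).symm
  · rw [map_one, one_smul, ((hsec h M).mp hM).1, ((hsec h N).mp hN).1]

end CfsgLib.GroupB.MaxInvariant
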