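import Cfsg.Prelude.Def_Transfer
import Mathlib.GroupTheory.Transfer
import Mathlib.GroupTheory.GroupAction.ConjAct
import Mathlib.Data.Nat.Factorization.Basic
import Mathlib.RingTheory.Coprime.Lemmas
import Mathlib.Tactic.Linarith
import Mathlib.Tactic.Ring

/-! Counting conjugacy classes of `π`-elements. -/

set_option autoImplicit false

namespace CfsgLib.GroupB.PiClasses

open Subgroup

universe u

/-- All prime divisors of the order of `x` lie in `σ`. -/
def IsPiElem {G : Type u} [Group G] (σ : Finset ℕ) (x : G) : Prop :=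
  ∀ r : ℕ, r.Prime → r ∣ orderOf x → r ∈ σ

/-- The number of classes of `σ`-elements. -/
noncomputable def cls (σ : Finset ℕ) (G : Type u) [Group G] : ℕ :=
  Nat.card {c : ConjClasses G // ∀ x ∈ c.carrier, IsPiElem σ x}

/-- The `σ`-part of a natural number. -/
def part (σ : Finset ℕ) (n : ℕ) : ℕ := σ.prod fun r => r ^ n.factorization r

variable {G : Type u} [Group G] [Finite G]

theorem finite_conjClasses : Finite (ConjClasses G) := Finite.of_surjective _ ConjClasses.mk_surjective

attribute [local instance] finite_conjClasses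

theorem isPiElem_conj {σ : Finset ℕ} {x y : G} (h : IsConj x y) (hx : IsPiElem σ x) : IsPiElem σ y := by
  obtain ⟨c, rfl⟩ := isConj_iff.mp h
  intro r hr hd
  refine hx r hr ?_
  rwa [← MulAut.conj_apply, MulEquiv.orderOf_eq] at hd

theorem isPiElem_singleton {p : ℕ} (hp : p.Prime) (x : G) :
    IsPiElem {p} x ↔ ∃ k, orderOf x = p ^ k := by
  refine ⟨fun h => ?_, fun ⟨k, hk⟩ r hr hd => ?_⟩
  · exact ⟨_, Nat.eq_prime_pow_of_unique_prime_dvd (orderOf_pos x).ne' fun hq hd => Finset.mem_singleton.mp (h _ hq hd)⟩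
  · rw [hk] at hd
    exact Finset.mem_singleton.mpr ((Nat.prime_dvd_prime_iff_eq hr hp).mp (hr.dvd_of_dvd_pow hd))

theorem cls_singleton {p : ℕ} (hp : p.Prime) :
    cls {p} G = Nat.card {c : ConjClasses G // ∀ x ∈ c.carrier, ∃ k : ℕ, orderOf x = p ^ k} :=
  Nat.card_congr (Equiv.subtypeEquivRight fun c => forall₂_congr fun x _ => isPiElem_singleton hp x)

section Sylow

variable {p : ℕ} [Fact p.Prime] (P : Sylow p G)

theorem exists_mem_sylow {c : ConjClasses G} (hc : ∀ x ∈ c.carrier, IsPiElem {p} x) :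
    ∃ x ∈ (P : Subgroup G), ConjClasses.mk x = c := by
  obtain ⟨y, rfl⟩ := ConjClasses.mk_surjective c
  obtain ⟨k, hk⟩ := (isPiElem_singleton Fact.out y).mp (hc y ConjClasses.mem_carrier_mk)
  obtain ⟨Q, hQ⟩ := (IsPGroup.of_card (p := p) (n := k) (G := zpowers y) (by rw [Nat.card_zpowers, hk])).exists_le_sylow
  obtain ⟨g, hg⟩ := MulAction.exists_smul_eq G Q P
  refine ⟨g * y * g⁻¹, ?_, ConjClasses.mk_eq_mk_iff_isConj.mpr (isConj_iff.mpr ⟨g, rfl⟩).symm⟩
  rw [← hg, Sylow.coe_subgroup_smul]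
  exact ⟨y, hQ (mem_zpowers y), rfl⟩

theorem isPiElem_of_mem {x : G} (hx : x ∈ (P : Subgroup G)) : IsPiElem {p} x := by
  obtain ⟨k, hk⟩ := IsPGroup.iff_orderOf.mp P.isPGroup' ⟨x, hx⟩
  exact (isPiElem_singleton Fact.out x).mpr ⟨k, by rw [← hk, ← Subgroup.orderOf_coe]⟩

/-- There are at most as many classes of `p`-elements as elements of a Sylow `p`-subgroup. -/
theorem cls_le_card : cls {p} G ≤ Nat.card (P : Subgroup G) := by
  classical
  refine Nat.card_le_card_of_surjective (fun x : (P : Subgroup G) => (⟨ConjClasses.mk (x : G), fun y hy =>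
    isPiElem_conj (ConjClasses.mk_eq_mk_iff_isConj.mp (ConjClasses.mem_carrier_iff_mk_eq.mp hy).symm) (isPiElem_of_mem P x.2)⟩ :
      {c : ConjClasses G // ∀ x ∈ c.carrier, IsPiElem {p} x})) ?_
  rintro ⟨c, hc⟩
  obtain ⟨x, hx, rfl⟩ := exists_mem_sylow P hc
  exact ⟨⟨x, hx⟩, rfl⟩

/-- Orbit count for the normalizer acting on a Sylow subgroup. -/
theorem two_mul_cls_le :
    2 * cls {p} G ≤ Nat.card (P : Subgroup G) +
      Nat.card ↥((P : Subgroup G) ⊓ centralizer (normalizer ((P : Subgroup G) : Set G) : Set G)) := by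
  classical
  haveI := Fintype.ofFinite G
  haveI := Fintype.ofFinite (ConjClasses G)
  set N := normalizer ((P : Subgroup G) : Set G)
  set C := (P : Subgroup G) ⊓ centralizer (N : Set G)
  let f : ↥(P : Subgroup G) → ConjClasses G := fun x => ConjClasses.mk (x : G)
  have h1 : cls {p} G ≤ (Finset.univ.image f).card := by
    rw [cls, Nat.card_eq_fintype_card, Fintype.card_subtype]
    refine Finset.card_le_card fun c hc => ?_
    rw [Finset.mem_filter] at hc
    obtain ⟨x, hx, rfl⟩ := exists_mem_sylow P hc.2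
    exact Finset.mem_image.mpr ⟨⟨x, hx⟩, Finset.mem_univ _, rfl⟩
  have h2 : ∀ c ∈ Finset.univ.image f,
      2 ≤ ((Finset.univ : Finset ↥(P : Subgroup G)).filter fun x => f x = c).card +
        (((Finset.univ : Finset ↥(P : Subgroup G)).filter fun x : ↥(P : Subgroup G) => (x : G) ∈ C).filter fun x => f x = c).card := by
    intro c hc
    obtain ⟨x, -, rfl⟩ := Finset.mem_image.mp hc
    by_cases hx : (x : G) ∈ C
    · exact Nat.add_le_add (Finset.card_pos.mpr ⟨x, by simp⟩) (Finset.card_pos.mpr ⟨x, by simp [hx]⟩)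
    · refine le_add_right (Finset.one_lt_card.mpr ?_)
      have hx' : (x : G) ∉ centralizer (N : Set G) := fun h => hx ⟨x.2, h⟩
      rw [mem_centralizer_iff] at hx'
      push Not at hx'
      obtain ⟨n, hn, hne⟩ := hx'
      refine ⟨x, by simp, ⟨n * x * n⁻¹, (mem_normalizer_iff.mp hn (x : G)).mp x.2⟩, ?_, ?_⟩
      · rw [Finset.mem_filter]
        exact ⟨Finset.mem_univ _, ConjClasses.mk_eq_mk_iff_isConj.mpr (isConj_iff.mpr ⟨n, rfl⟩).symm⟩
      · intro h
        have e : (x : G) = n * x * n⁻¹ := congrArg Subtype.val h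
        exact hne (by
          calc n * (x : G) = (n * x * n⁻¹) * n := by group
            _ = x * n := by rw [← e])
  have h3 := Finset.sum_le_sum h2
  rw [Finset.sum_const, smul_eq_mul, Finset.sum_add_distrib,
    ← Finset.card_eq_sum_card_fiberwise (fun x _ => Finset.mem_image_of_mem f (Finset.mem_univ x)),
    ← Finset.card_eq_sum_card_fiberwise (fun x _ => Finset.mem_image_of_mem f (Finset.mem_univ x)),
    Finset.card_univ, ← Nat.card_eq_fintype_card] at h3
  have h4 : (((Finset.univ : Finset ↥(P : Subgroup G)).filter fun x : ↥(P : Subgroup G) => (x : G) ∈ C)).card ≤ Nat.card C := by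
    rw [← Fintype.card_subtype, ← Nat.card_eq_fintype_card]
    exact Nat.card_le_card_of_injective (fun x => (⟨(x.1 : G), x.2⟩ : C))
      fun a b h => Subtype.ext (Subtype.ext (congrArg (fun t : C => (t : G)) h))
  omega

/-- Many classes of `p`-elements force an abelian Sylow subgroup with a normal complement. -/
theorem hasNormalPComplement_of_cls (hk : (p + 1) * Nat.card (P : Subgroup G) < 2 * p * cls {p} G) :
    Cfsg.HasNormalPComplement p G ∧ IsMulCommutative (P : Subgroup G) := by
  have h := two_mul_cls_le P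
  set C := (P : Subgroup G) ⊓ centralizer (normalizer ((P : Subgroup G) : Set G) : Set G)
  have hC : C = (P : Subgroup G) := by
    by_contra hne
    obtain ⟨a, ha⟩ := IsPGroup.iff_card.mp P.isPGroup'
    obtain ⟨b, hb⟩ := IsPGroup.iff_card.mp (P.isPGroup'.to_le (inf_le_left : C ≤ P))
    have hlt : Nat.card C < Nat.card (P : Subgroup G) :=
      lt_of_not_ge fun hge => hne (eq_of_le_of_card_ge inf_le_left hge)
    rw [ha, hb] at hlt
    have hp := (Fact.out : p.Prime).one_lt
    have hab : b + 1 ≤ a := (Nat.pow_lt_pow_iff_right hp).mp hlt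
    have h5 : p * Nat.card C ≤ Nat.card (P : Subgroup G) := by
      rw [ha, hb, ← pow_succ']
      exact Nat.pow_le_pow_right (by omega) hab
    have h6 := Nat.mul_le_mul_left p h
    rw [add_mul, one_mul] at hk
    have e : 2 * p * cls {p} G = p * (2 * cls {p} G) := by ring
    rw [e] at hk
    rw [mul_add] at h6
    omega
  have hN : normalizer ((P : Subgroup G) : Set G) ≤ centralizer ((P : Subgroup G) : Set G) := by
    intro n hn
    rw [mem_centralizer_iff]
    intro x hx
    have : x ∈ C := by rw [hC]; exact hx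
    exact (mem_centralizer_iff.mp this.2 n hn).symm
  refine ⟨⟨P, _, inferInstance, MonoidHom.ker_transferSylow_isComplement' P hN⟩, ⟨⟨fun a b => Subtype.ext ?_⟩⟩⟩
  exact (mem_centralizer_iff.mp (hN (le_normalizer b.2)) a a.2)

/-- With a normal complement and an abelian Sylow subgroup fusion is trivial. -/
theorem card_le_cls (hN : Cfsg.HasNormalPComplement p G) (hab : IsMulCommutative (P : Subgroup G)) :
    Nat.card (P : Subgroup G) ≤ cls {p} G := by
  obtain ⟨Q, K, hK, hKQ⟩ := hN
  obtain ⟨g, hg⟩ := MulAction.exists_smul_eq G Q P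
  let e : Q ≃* P := (Sylow.equiv Q P)
  have hcomm : ∀ a b : G ⧸ K, a * b = b * a := by
    intro a b
    have hs : Function.Surjective ((QuotientGroup.mk' K).comp (Q : Subgroup G).subtype) := by
      intro q
      obtain ⟨x, rfl⟩ := QuotientGroup.mk_surjective q
      obtain ⟨⟨k, y⟩, hky⟩ := hKQ.2 x
      refine ⟨y, ?_⟩
      show (QuotientGroup.mk (y : G) : G ⧸ K) = QuotientGroup.mk x
      rw [← hky]
      symm
      rw [QuotientGroup.mk_mul, (QuotientGroup.eq_one_iff _).mpr k.2, one_mul]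
    obtain ⟨a', rfl⟩ := hs a
    obtain ⟨b', rfl⟩ := hs b
    rw [← map_mul, ← map_mul]
    congr 1
    apply e.injective
    rw [map_mul, map_mul]
    exact hab.is_comm.comm _ _
  refine Nat.card_le_card_of_injective (fun x : (P : Subgroup G) => (⟨ConjClasses.mk (x : G), fun y hy =>
    isPiElem_conj (ConjClasses.mk_eq_mk_iff_isConj.mp (ConjClasses.mem_carrier_iff_mk_eq.mp hy).symm) (isPiElem_of_mem P x.2)⟩ :
      {c : ConjClasses G // ∀ x ∈ c.carrier, IsPiElem {p} x})) fun x y h => ?_
  obtain ⟨c, hc⟩ := isConj_iff.mp (ConjClasses.mk_eq_mk_iff_isConj.mp (congrArg Subtype.val h))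
  have h1 : ((x : G)⁻¹ * y) ∈ K := by
    rw [← hc, ← QuotientGroup.eq_one_iff]
    simp only [QuotientGroup.mk_mul, QuotientGroup.mk_inv]
    rw [hcomm (QuotientGroup.mk c) (QuotientGroup.mk (x : G)), mul_inv_cancel_right, inv_mul_cancel]
  have hd : K ⊓ (P : Subgroup G) = ⊥ := by
    refine inf_eq_bot_of_coprime ?_
    rw [← Subgroup.IsComplement'.index_eq_card hKQ]
    obtain ⟨a, ha⟩ := IsPGroup.iff_card.mp P.isPGroup'
    rw [ha]
    exact (Nat.Coprime.pow_left a ((Fact.out : p.Prime).coprime_iff_not_dvd.mpr Q.not_dvd_index)).symm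
  have h2 : ((x : G)⁻¹ * y) ∈ K ⊓ (P : Subgroup G) := ⟨h1, (P : Subgroup G).mul_mem ((P : Subgroup G).inv_mem x.2) y.2⟩
  rw [hd, mem_bot, inv_mul_eq_one] at h2
  exact Subtype.ext h2

end Sylow

theorem cls_insert_le {p : ℕ} (hp : p.Prime) {σ : Finset ℕ} (hpσ : p ∉ σ) {m : ℕ}
    (hm : ∀ x : G, cls σ (centralizer ({x} : Set G)) ≤ m) : cls (insert p σ) G ≤ cls {p} G * m := by
  classical
  haveI := Fintype.ofFinite G
  haveI := Fintype.ofFinite (ConjClasses G)
  let D := {c : ConjClasses G // ∀ x ∈ c.carrier, IsPiElem {p} x}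
  let r : D → G := fun c => Function.surjInv ConjClasses.mk_surjective c.1
  have hr : ∀ c : D, ConjClasses.mk (r c) = c.1 := fun c => Function.surjInv_eq ConjClasses.mk_surjective _
  let S := Σ c : D, {d : ConjClasses (centralizer ({r c} : Set G)) // ∀ y ∈ d.carrier, IsPiElem σ y}
  let F : S → ConjClasses G := fun s => Quotient.liftOn s.2.1 (fun y => ConjClasses.mk (r s.1 * (y : G))) (by
    intro y y' hyy
    obtain ⟨c, hc⟩ := isConj_iff.mp hyy
    refine ConjClasses.mk_eq_mk_iff_isConj.mpr (isConj_iff.mpr ⟨c, ?_⟩)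
    have := congrArg Subtype.val hc
    push_cast at this
    rw [← this]
    have hcc := mem_centralizer_iff.mp c.2 (r s.1) rfl
    calc (c : G) * (r s.1 * y) * (c : G)⁻¹ = ((c : G) * r s.1) * y * (c : G)⁻¹ := by group
      _ = (r s.1 * c) * y * (c : G)⁻¹ := by rw [hcc]
      _ = r s.1 * ((c : G) * y * (c : G)⁻¹) := by group)
  have hcover : ∀ c : {c : ConjClasses G // ∀ x ∈ c.carrier, IsPiElem (insert p σ) x}, ∃ s, F s = c.1 := by
    rintro ⟨c, hc⟩
    obtain ⟨g, rfl⟩ := ConjClasses.mk_surjective c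
    have hg := hc g ConjClasses.mem_carrier_mk
    set n := orderOf g with hn
    have hn0 : n ≠ 0 := (orderOf_pos g).ne'
    set a := p ^ n.factorization p
    set b := n / a
    have hab : a * b = n := Nat.ordProj_mul_ordCompl_eq_self n p
    have hcop : Nat.Coprime a b := Nat.Coprime.pow_left _ (Nat.coprime_ordCompl hp hn0)
    obtain ⟨s, t, hst⟩ := Nat.isCoprime_iff_coprime.mpr hcop
    set x := g ^ (t * (b : ℤ))
    set y := g ^ (s * (a : ℤ))
    have hxy : x * y = g := by rw [← zpow_add, add_comm, hst, zpow_one]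
    have hxa : x ^ a = 1 := by
      rw [← zpow_natCast, ← zpow_mul, mul_assoc, mul_comm (b : ℤ) a, ← Nat.cast_mul, hab, mul_comm t, zpow_mul,
        zpow_natCast, hn, pow_orderOf_eq_one, one_zpow]
    have hyb : y ^ b = 1 := by
      rw [← zpow_natCast, ← zpow_mul, mul_assoc, ← Nat.cast_mul, hab, mul_comm s, zpow_mul,
        zpow_natCast, hn, pow_orderOf_eq_one, one_zpow]
    have hxp : IsPiElem {p} x := fun q hq hd =>
      Finset.mem_singleton.mpr ((Nat.prime_dvd_prime_iff_eq hq hp).mp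
        (hq.dvd_of_dvd_pow (hd.trans (orderOf_dvd_of_pow_eq_one hxa))))
    have hyp : IsPiElem σ y := by
      intro q hq hd
      have hqb : q ∣ b := hd.trans (orderOf_dvd_of_pow_eq_one hyb)
      rcases Finset.mem_insert.mp (hg q hq (hqb.trans (show b ∣ orderOf g from ⟨a, by rw [← hn, ← hab]; ring⟩))) with h | h
      · subst h; exact absurd hqb (Nat.not_dvd_ordCompl hq hn0)
      · exact h
    let d : D := ⟨ConjClasses.mk x, fun z hz => isPiElem_conj (ConjClasses.mk_eq_mk_iff_isConj.mp (ConjClasses.mem_carrier_iff_mk_eq.mp hz).symm) hxp⟩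
    obtain ⟨h, hh⟩ := isConj_iff.mp (ConjClasses.mk_eq_mk_iff_isConj.mp (hr d).symm)
    have hyc : h * y * h⁻¹ ∈ centralizer ({r d} : Set G) := by
      rw [mem_centralizer_iff]
      rintro _ rfl
      rw [← hh]
      have hc' : Commute x y := Commute.zpow_zpow_self g _ _
      calc h * x * h⁻¹ * (h * y * h⁻¹) = h * (x * y) * h⁻¹ := by group
        _ = h * (y * x) * h⁻¹ := by rw [hc'.eq]
        _ = h * y * h⁻¹ * (h * x * h⁻¹) := by group
    let w : centralizer ({r d} : Set G) := ⟨h * y * h⁻¹, hyc⟩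
    have hw : IsPiElem σ w := by
      intro q hq hd
      rw [← Subgroup.orderOf_coe] at hd
      exact isPiElem_conj (isConj_iff.mpr ⟨h, rfl⟩) hyp q hq hd
    refine ⟨⟨d, ⟨ConjClasses.mk w, fun z hz => isPiElem_conj (ConjClasses.mk_eq_mk_iff_isConj.mp (ConjClasses.mem_carrier_iff_mk_eq.mp hz).symm) hw⟩⟩, ?_⟩
    show ConjClasses.mk (r d * (h * y * h⁻¹)) = ConjClasses.mk g
    refine ConjClasses.mk_eq_mk_iff_isConj.mpr (isConj_iff.mpr ⟨h, ?_⟩).symm
    rw [← hh, ← hxy]; group
  choose inv hinv using hcover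
  calc cls (insert p σ) G ≤ Nat.card S := Nat.card_le_card_of_injective inv fun a b h =>
        Subtype.ext (by rw [← hinv a, ← hinv b, h])
    _ = ∑ c : D, cls σ (centralizer ({r c} : Set G)) := Nat.card_sigma
    _ ≤ ∑ _c : D, m := Finset.sum_le_sum fun c _ => hm _
    _ = cls {p} G * m := by rw [Finset.sum_const, smul_eq_mul, cls, Nat.card_eq_fintype_card, Finset.card_univ]

theorem part_le_part {σ : Finset ℕ} (hσ : ∀ r ∈ σ, r.Prime) {m n : ℕ} (hn : n ≠ 0) (h : m ∣ n) :
    part σ m ≤ part σ n :=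
  Finset.prod_le_prod' fun r hr => Nat.pow_le_pow_right (hσ r hr).pos
    ((Nat.factorization_le_iff_dvd (ne_zero_of_dvd_ne_zero hn h) hn).mpr h r)

/-- There are at most `|G|_σ` classes of `σ`-elements. -/
theorem cls_le_part : ∀ (σ : Finset ℕ), (∀ r ∈ σ, r.Prime) → ∀ (G : Type u) [Group G] [Finite G],
    cls σ G ≤ part σ (Nat.card G) := by
  intro σ
  induction σ using Finset.induction with
  | empty =>
    intro _ G _ _
    haveI : Subsingleton {c : ConjClasses G // ∀ x ∈ c.carrier, IsPiElem (∅ : Finset ℕ) x} := by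
      refine ⟨fun a b => Subtype.ext ?_⟩
      have h1 : ∀ c : {c : ConjClasses G // ∀ x ∈ c.carrier, IsPiElem (∅ : Finset ℕ) x}, c.1 = ConjClasses.mk 1 := by
        rintro ⟨c, hc⟩
        obtain ⟨x, rfl⟩ := ConjClasses.mk_surjective c
        by_contra hne
        have hx1 : orderOf x ≠ 1 := fun h => hne (congrArg ConjClasses.mk (orderOf_eq_one_iff.mp h))
        obtain ⟨q, hq, hd⟩ := Nat.exists_prime_and_dvd hx1
        exact absurd (hc x ConjClasses.mem_carrier_mk q hq hd) (Finset.notMem_empty q)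
      rw [h1, h1]
    exact le_of_le_of_eq (Finite.card_le_one_iff_subsingleton.mpr this) (by simp [part])
  | insert p τ hp ih =>
    intro hσ G _ _
    haveI := Fact.mk (hσ p (Finset.mem_insert_self p τ))
    have hτ : ∀ r ∈ τ, r.Prime := fun r hr => hσ r (Finset.mem_insert_of_mem hr)
    refine (cls_insert_le Fact.out hp fun x => (ih hτ _).trans
      (part_le_part hτ Nat.card_pos.ne' (Subgroup.card_subgroup_dvd_card _))).trans ?_
    obtain ⟨P⟩ : Nonempty (Sylow p G) := inferInstance
    simp only [part, Finset.prod_insert hp]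
    exact Nat.mul_le_mul_right _ ((cls_le_card P).trans_eq P.card_eq_multiplicity)

end CfsgLib.GroupB.PiClasses
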