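import Mathlib
import Cfsg.Agent.Lib.GroupB.Coprime

/-!
# Separability and homogeneity give closure
-/

set_option autoImplicit false
set_option linter.style.haveILetI false

namespace CfsgLib.GroupB.PiClosed

open scoped commutatorElement

universe u

variable {G : Type u} [Group G] [Finite G]

/-- The order involves only primes of `π`. -/
def PiElt (π : Set ℕ) (x : G) : Prop := ∀ p : ℕ, p.Prime → p ∣ orderOf x → p ∈ π

theorem exists_part (π : Set ℕ) {H : Type u} [Group H] [Finite H] (f : G →* H) (g : G) (hm : PiElt π (f g)) :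
    ∃ j : ℕ, f (g ^ j) = f g ∧ PiElt π (g ^ j) := by
  set m := orderOf (f g) with hmdef
  set N := orderOf g with hN
  have hN0 : 0 < N := orderOf_pos g
  have hm0 : 0 < m := orderOf_pos _
  set a := Nat.gcd N (m ^ N) with ha
  obtain ⟨b, hb⟩ : a ∣ N := Nat.gcd_dvd_left _ _
  have hcop : Nat.Coprime b m := by
    refine Nat.coprime_of_dvd fun q hq hqb hqm => ?_
    have h1 : q ^ (N.factorization q) ∣ a := by
      refine Nat.dvd_gcd (Nat.ordProj_dvd N q) ?_
      refine dvd_trans (pow_dvd_pow q ?_) (pow_dvd_pow_of_dvd hqm N)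
      exact (Nat.factorization_lt q hN0.ne').le
    have h2 : q ^ (N.factorization q + 1) ∣ N := by
      rw [pow_succ]
      conv_rhs => rw [hb]
      exact Nat.mul_dvd_mul h1 hqb
    have := (hq.pow_dvd_iff_le_factorization hN0.ne').mp h2
    omega
  obtain ⟨t, -, ht⟩ : ∃ t < max m 2, b * t % m = 1 % m := by
    rcases Nat.lt_or_ge 1 m with h | h
    · obtain ⟨t, ht1, ht2⟩ := Nat.exists_mul_mod_eq_one_of_coprime hcop h
      exact ⟨t, lt_max_of_lt_left ht1, by rw [ht2, Nat.one_mod_eq_one.mpr (by omega)]⟩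
    · exact ⟨0, by omega, by rw [show m = 1 by omega]; simp [Nat.mod_one]⟩
  refine ⟨b * t, ?_, fun q hq hd => ?_⟩
  · rw [map_pow, ← pow_mod_orderOf, ← hmdef, ht, hmdef, pow_mod_orderOf, pow_one]
  · have h1 : (g ^ (b * t)) ^ a = 1 := by
      rw [← pow_mul, show b * t * a = a * b * t by ring, ← hb, pow_mul, pow_orderOf_eq_one, one_pow]
    exact hm q hq (hq.dvd_of_dvd_pow ((hd.trans (orderOf_dvd_of_pow_eq_one h1)).trans (Nat.gcd_dvd_right _ _)))

theorem pi_dvd {π : Set ℕ} {K : Subgroup G} (hK : ∀ x ∈ K, PiElt π x) {q : ℕ} (hq : q.Prime) (hd : q ∣ Nat.card K) :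
    q ∈ π := by
  haveI := Fact.mk hq
  obtain ⟨x, hx⟩ := exists_prime_orderOf_dvd_card' q hd
  exact hK x x.2 q hq (by rw [Subgroup.orderOf_coe, hx])

theorem centralize_of_homog (π : Set ℕ)
    (hom : ∀ H : Subgroup G, H ≠ ⊥ → (∀ p : ℕ, p.Prime → p ∣ Nat.card H → p ∉ π) →
      ∀ p : ℕ, p.Prime → p ∣ (Subgroup.centralizer (H : Set G)).relIndex (Subgroup.normalizer (H : Set G)) → p ∉ π)
    {S : Subgroup G} (hS : ∀ p : ℕ, p.Prime → p ∣ Nat.card S → p ∉ π) {n : G}
    (hn : n ∈ Subgroup.normalizer (S : Set G)) (hnp : PiElt π n) : ∀ s ∈ S, n * s = s * n := by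
  by_cases hS1 : S = ⊥
  · intro s hs
    rw [hS1, Subgroup.mem_bot] at hs
    rw [hs, mul_one, one_mul]
  set Nz := Subgroup.normalizer (S : Set G) with hNz
  set C := (Subgroup.centralizer (S : Set G)).subgroupOf Nz with hC
  haveI : C.Normal := by
    rw [hC, hNz, ← Subgroup.normalizerMonoidHom_ker]; infer_instance
  have h1 : orderOf (QuotientGroup.mk' C ⟨n, hn⟩) ∣ (Subgroup.centralizer (S : Set G)).relIndex Nz := by
    rw [Subgroup.relIndex, Subgroup.index_eq_card]; exact orderOf_dvd_natCard _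
  have h2 : orderOf (QuotientGroup.mk' C ⟨n, hn⟩) = 1 := by
    by_contra hne
    obtain ⟨q, hq, hqd⟩ := Nat.exists_prime_and_dvd hne
    refine hom S hS1 hS q hq (hqd.trans h1) (hnp q hq ?_)
    refine hqd.trans ((orderOf_map_dvd _ _).trans ?_)
    rw [← Subgroup.orderOf_coe]
  rw [orderOf_eq_one_iff, QuotientGroup.mk'_apply, QuotientGroup.eq_one_iff, Subgroup.mem_subgroupOf] at h2
  intro s hs
  exact (Subgroup.mem_centralizer_iff.mp h2 s hs).symm

theorem step (π : Set ℕ)
    (hom : ∀ H : Subgroup G, H ≠ ⊥ → (∀ p : ℕ, p.Prime → p ∣ Nat.card H → p ∉ π) →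
      ∀ p : ℕ, p.Prime → p ∣ (Subgroup.centralizer (H : Set G)).relIndex (Subgroup.normalizer (H : Set G)) → p ∉ π)
    (H₀ H₁ : Subgroup G) [H₀.Normal] [H₁.Normal] (hle : H₀ ≤ H₁)
    (hfac : (∀ q : ℕ, q.Prime → q ∣ H₀.relIndex H₁ → q ∈ π) ∨ (∀ q : ℕ, q.Prime → q ∣ H₀.relIndex H₁ → q ∉ π))
    (K : Subgroup G) (hKle : K ≤ H₀) (hK : ∀ x ∈ H₀, x ∈ K ↔ PiElt π x) :
    ∃ K' : Subgroup G, K' ≤ H₁ ∧ ∀ x ∈ H₁, x ∈ K' ↔ PiElt π x := by
  classical
  have hcoset : ∀ x ∈ H₁, ∀ q : ℕ, q.Prime → q ∣ orderOf ((x : G) : G ⧸ H₀) → q ∣ H₀.relIndex H₁ ∧ q ∣ orderOf x := by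
    intro x hx q hq hd
    refine ⟨hd.trans ?_, hd.trans (orderOf_map_dvd (QuotientGroup.mk' H₀) x)⟩
    have hh : (QuotientGroup.mk' H₀ x) ∈ H₁.map (QuotientGroup.mk' H₀) := ⟨x, hx, rfl⟩
    have := orderOf_dvd_natCard (⟨_, hh⟩ : H₁.map (QuotientGroup.mk' H₀))
    rw [← Subgroup.orderOf_coe] at this
    refine this.trans (dvd_of_eq ?_)
    rw [← Subgroup.relIndex_bot_left, ← (QuotientGroup.mk' H₀).ker.map_eq_bot_iff.mpr le_rfl,
      QuotientGroup.ker_mk', Subgroup.relIndex_map_map, QuotientGroup.ker_mk', sup_idem, sup_eq_left.mpr hle]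
  rcases hfac with hπ | hπ'
  swap
  · refine ⟨K, hKle.trans hle, fun x hx => ⟨fun h => (hK x (hKle h)).mp h, fun h => (hK x ?_).mpr h⟩⟩
    rw [← QuotientGroup.eq_one_iff, ← orderOf_eq_one_iff]
    by_contra hne
    obtain ⟨q, hq, hqd⟩ := Nat.exists_prime_and_dvd hne
    obtain ⟨h1, h2⟩ := hcoset x hx q hq hqd
    exact hπ' q hq h1 (h q hq h2)
  have hKpi : ∀ x ∈ K, PiElt π x := fun x hx => (hK x (hKle hx)).mp hx
  haveI hKn : K.Normal := ⟨fun x hx g => by
    refine (hK _ ((inferInstance : H₀.Normal).conj_mem x (hKle hx) g)).mpr fun p hp hd => hKpi x hx p hp ?_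
    rwa [show g * x * g⁻¹ = MulAut.conj g x from rfl, MulEquiv.orderOf_eq] at hd⟩
  set f := QuotientGroup.mk' K with hf
  have hfk : f.ker = K := QuotientGroup.ker_mk' K
  set R := H₀.map f with hR
  haveI hRn : R.Normal := (inferInstance : H₀.Normal).map f (QuotientGroup.mk'_surjective K)
  have hRpi : ∀ q : ℕ, q.Prime → q ∣ Nat.card R → q ∉ π := by
    intro q hq hd hqπ
    haveI := Fact.mk hq
    obtain ⟨w, hwo⟩ := exists_prime_orderOf_dvd_card' (G := R) q hd
    obtain ⟨y, hy, hyw⟩ := w.2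
    have hyo : orderOf (f y) = q := by rw [hyw, Subgroup.orderOf_coe, hwo]
    have hpe : PiElt π (f y) := fun p hp hd' => by
      rw [hyo] at hd'; exact ((Nat.prime_dvd_prime_iff_eq hp hq).mp hd').symm ▸ hqπ
    obtain ⟨j, hj1, hj2⟩ := exists_part π f y hpe
    have hyK : y ^ j ∈ K := (hK _ (H₀.pow_mem hy j)).mpr hj2
    rw [← hfk, MonoidHom.mem_ker, hj1] at hyK
    rw [hyK, orderOf_one] at hyo
    exact hq.ne_one hyo.symm
  -- π-elements centralise the π'-group
  have hcent : ∀ x ∈ H₁, PiElt π (f x) → ∀ r ∈ R, f x * r = r * f x := by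
    intro x hx hxp
    set Xc := Subgroup.zpowers (f x) with hXc
    have hXR : Xc ≤ Subgroup.normalizer (R : Set (G ⧸ K)) := by rw [Subgroup.normalizer_eq_top]; exact le_top
    have hcop : (Nat.card Xc).Coprime (Nat.card R) := by
      refine Nat.coprime_of_dvd fun q hq h1 h2 => hRpi q hq h2 (hxp q hq ?_)
      rwa [Nat.card_zpowers] at h1
    have hsol : Group.IsSolvable R ∨ Group.IsSolvable Xc := Or.inr inferInstance
    have key : ∀ q : ℕ, q.Prime → q ^ (Nat.card R).factorization q ∣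
        Nat.card ↥(R ⊓ Subgroup.centralizer ({f x} : Set (G ⧸ K))) := by
      intro q hq
      haveI := Fact.mk hq
      by_cases hqR : q ∣ Nat.card R
      swap
      · rw [Nat.factorization_eq_zero_of_not_dvd hqR, pow_zero]; exact one_dvd _
      obtain ⟨⟨P, hP, hPX⟩, -⟩ := CfsgLib.GroupB.Coprime.invariant_sylow hXR hcop hsol q
      rw [← hP.2]
      refine Subgroup.card_dvd_of_le (le_inf hP.1 ?_)
      set T := P.comap f with hT
      haveI : Fact q.Prime := Fact.mk hq
      obtain ⟨S⟩ : Nonempty (Sylow q T) := inferInstance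
      set S' : Subgroup G := (S : Subgroup T).map T.subtype with hS'
      have hS'T : S' ≤ T := Subgroup.map_subtype_le _
      have hKT : K ≤ T := fun k hk => by
        show f k ∈ P
        rw [show f k = 1 from (QuotientGroup.eq_one_iff k).mpr hk]; exact P.one_mem
      have hPS : P = S'.map f := by
        refine (Subgroup.eq_of_le_of_card_ge (Subgroup.map_le_iff_le_comap.mpr hS'T) ?_).symm
        have hqπ : q ∉ π := hRpi q hq hqR
        have hTP : T.map f = P := Subgroup.map_comap_eq_self_of_surjective (QuotientGroup.mk'_surjective K) P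
        have hcT : Nat.card T = Nat.card K * Nat.card P := by
          rw [← hTP, ← Subgroup.card_mul_index (K.subgroupOf T), Nat.card_congr (Subgroup.subgroupOfEquivOfLe hKT).toEquiv]
          congr 1
          rw [← Subgroup.relIndex, ← Subgroup.relIndex_bot_left, ← (QuotientGroup.mk' K).ker.map_eq_bot_iff.mpr le_rfl,
            QuotientGroup.ker_mk', Subgroup.relIndex_map_map, QuotientGroup.ker_mk', sup_idem, sup_eq_left.mpr hKT]
        have hScard : Nat.card S' = Nat.card P := by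
          rw [hS', Subgroup.card_map_of_injective T.subtype_injective, S.card_eq_multiplicity, hP.2, hcT,
            Nat.factorization_mul Nat.card_pos.ne' Nat.card_pos.ne', Finsupp.add_apply,
            Nat.factorization_eq_zero_of_not_dvd (fun h => hqπ (pi_dvd hKpi hq h)), zero_add, hP.2,
            Nat.Prime.factorization_pow hq, Finsupp.single_eq_same]
        have hinj : Set.InjOn f (S' : Set G) := by
          intro a ha b hb hab
          have h1 : a⁻¹ * b ∈ K := QuotientGroup.eq.mp hab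
          have h2 : a⁻¹ * b ∈ S' := S'.mul_mem (S'.inv_mem ha) hb
          obtain ⟨k, hk⟩ := IsPGroup.iff_card.mp (IsPGroup.of_card (n := (Nat.card R).factorization q) (hScard.trans hP.2))
          have h3 : orderOf (a⁻¹ * b) = 1 := by
            by_contra hne
            obtain ⟨l, hl, hld⟩ := Nat.exists_prime_and_dvd hne
            have : l ∣ q ^ k := hk ▸ hld.trans (by rw [← Subgroup.orderOf_mk (a⁻¹ * b) h2]; exact orderOf_dvd_natCard _)
            exact hqπ ((Nat.prime_dvd_prime_iff_eq hl hq).mp (hl.dvd_of_dvd_pow this) ▸ hKpi _ h1 l hl hld)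
          rw [orderOf_eq_one_iff, inv_mul_eq_one] at h3
          exact h3
        rw [← hScard]
        exact le_of_eq (Nat.card_image_of_injOn hinj).symm
      have hxT : x ∈ Subgroup.normalizer (T : Set G) := by
        rw [Subgroup.mem_normalizer_iff]
        intro y
        show f y ∈ P ↔ f (x * y * x⁻¹) ∈ P
        rw [map_mul, map_mul, map_inv]
        exact Subgroup.mem_normalizer_iff.mp (hPX (Subgroup.mem_zpowers _)) (f y)
      have hS'syl : CfsgLib.GroupB.Coprime.IsSylowOf q S' T := CfsgLib.GroupB.Coprime.isSylowOf_map S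
      obtain ⟨t, ht, hte⟩ := CfsgLib.GroupB.Coprime.IsSylowOf.exists_conj hS'syl (hS'syl.map_conj hxT)
      obtain ⟨s, hs, hse⟩ : ∃ s ∈ S', f s = f t := by
        have : f t ∈ S'.map f := hPS ▸ ht
        exact this
      set n := s * t⁻¹ * x with hn
      have hnN : n ∈ Subgroup.normalizer (S' : Set G) := by
        rw [hn, mul_assoc]
        refine Subgroup.mul_mem _ (Subgroup.le_normalizer hs) ?_
        rw [CfsgLib.GroupB.Coprime.mem_normalizer_iff_map_conj_eq,
          ← CfsgLib.GroupB.SchurZassenhaus.map_conj_map_conj, ← hte, CfsgLib.GroupB.SchurZassenhaus.map_conj_map_conj,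
          inv_mul_cancel, map_one]
        exact Subgroup.map_id _
      have hfn : f n = f x := by rw [hn, map_mul, map_mul, map_inv, hse, mul_inv_cancel, one_mul]
      obtain ⟨j, hj1, hj2⟩ := exists_part π f n (by rw [hfn]; exact hxp)
      have hScen := centralize_of_homog π hom (S := S') (fun p hp hd => by
        have h5 : p ∣ q ^ (Nat.card T).factorization q := by rw [← hS'syl.2]; exact hd
        rw [(Nat.prime_dvd_prime_iff_eq hp hq).mp (hp.dvd_of_dvd_pow h5)]
        exact hRpi q hq hqR) (Subgroup.pow_mem _ hnN j) hj2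
      intro r hr
      rw [Subgroup.mem_centralizer_singleton_iff]
      rw [hPS] at hr
      obtain ⟨s', hs', rfl⟩ := hr
      rw [← hfn, ← hj1, ← map_mul, ← map_mul, hScen s' hs']
    have htop : R ⊓ Subgroup.centralizer ({f x} : Set (G ⧸ K)) = R := by
      refine Subgroup.eq_of_le_of_card_ge inf_le_left (Nat.le_of_dvd Nat.card_pos ?_)
      rw [← Nat.factorization_le_iff_dvd Nat.card_pos.ne' Nat.card_pos.ne']
      intro q
      by_cases hq : q.Prime
      · exact (hq.pow_dvd_iff_le_factorization Nat.card_pos.ne').mp (key q hq)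
      · simp [Nat.factorization_eq_zero_of_not_prime _ hq]
    intro r hr
    have := (htop.ge hr).2
    exact (Subgroup.mem_centralizer_singleton_iff.mp this).symm
  -- the complement
  set E := H₁.map f ⊓ Subgroup.centralizer (R : Set (G ⧸ K)) with hE
  set Z := R.subgroupOf E with hZ
  haveI : Z.Normal := Subgroup.normal_subgroupOf
  have hidx : ∀ q : ℕ, q.Prime → q ∣ Z.index → q ∈ π := by
    intro q hq hd
    refine hπ q hq (hd.trans ?_)
    haveI : (H₁.map f).Normal := (inferInstance : H₁.Normal).map f (QuotientGroup.mk'_surjective K)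
    haveI : E.Normal := by rw [hE]; infer_instance
    have h1 : Z.index = R.relIndex (E ⊔ R) := by rw [Subgroup.relIndex_sup_right]; rfl
    have h2 : R.relIndex (E ⊔ R) ∣ R.relIndex (H₁.map f) := by
      refine ⟨(E ⊔ R).relIndex (H₁.map f), (Subgroup.relIndex_mul_relIndex _ _ _ le_sup_right ?_).symm⟩
      exact sup_le inf_le_left (Subgroup.map_mono hle)
    refine (h1 ▸ h2).trans (dvd_of_eq ?_)
    rw [hR, Subgroup.relIndex_map_map, hfk, sup_eq_left.mpr hKle, sup_eq_left.mpr (hKle.trans hle)]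
  have hZpi : ∀ q : ℕ, q.Prime → q ∣ Nat.card Z → q ∉ π := fun q hq hd => hRpi q hq (hd.trans (by
    have : Nat.card Z = Nat.card ↥(R ⊓ E) := by
      rw [← Subgroup.subgroupOf_map_subtype, Subgroup.card_map_of_injective E.subtype_injective]
    rw [this]; exact Subgroup.card_dvd_of_le inf_le_left))
  obtain ⟨W, hW⟩ := Subgroup.exists_right_complement'_of_coprime (N := Z)
    (Nat.coprime_of_dvd fun q hq h1 h2 => hZpi q hq h1 (hidx q hq h2))
  have hWcard : Nat.card W = Z.index := (hW.symm.index_eq_card).symm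
  haveI hWn : W.Normal := by
    refine ⟨fun w hw e => ?_⟩
    obtain ⟨⟨⟨z, hz⟩, ⟨v, hv⟩⟩, hzv, -⟩ := Subgroup.IsComplement.existsUnique hW e
    have hzc : ∀ y : E, z * y = y * z := fun y => Subtype.ext
      (Subgroup.mem_centralizer_iff.mp y.2.2 (z : G ⧸ K) hz)
    have e' : e * w * e⁻¹ = z * (v * w * v⁻¹) * z⁻¹ := by
      rw [← (show z * v = e from hzv)]; group
    rw [e', hzc, mul_inv_cancel_right]
    exact W.mul_mem (W.mul_mem hv hw) (W.inv_mem hv)
  refine ⟨(W.map E.subtype).comap f ⊓ H₁, inf_le_right, fun x hx => ⟨fun h => ?_, fun h => ?_⟩⟩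
  · obtain ⟨w, hw, hwx⟩ := h.1
    have hpw : PiElt π (f x) := fun p hp hd => by
      refine hidx p hp (hWcard ▸ hd.trans ?_)
      rw [← hwx, E.coe_subtype, Subgroup.orderOf_coe]
      rw [← Subgroup.orderOf_mk w hw]
      exact orderOf_dvd_natCard _
    intro p hp hd
    by_contra hpn
    obtain ⟨j, hj1, hj2⟩ := exists_part π f x hpw
    have hdiff : x * (x ^ j)⁻¹ ∈ K := by
      rw [← hfk, MonoidHom.mem_ker, map_mul, map_inv, hj1, mul_inv_cancel]
    have hj3 := hKpi _ hdiff
    have hxdvd : orderOf x ∣ orderOf (x * (x ^ j)⁻¹) * orderOf (x ^ j) := by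
      have hc : Commute (x * (x ^ j)⁻¹) (x ^ j) :=
        ((Commute.refl x).pow_right j).mul_left ((Commute.refl (x ^ j)).inv_left)
      have := hc.orderOf_mul_dvd_mul_orderOf
      rwa [inv_mul_cancel_right] at this
    rcases (Nat.Prime.dvd_mul hp).mp (hd.trans hxdvd) with h1 | h1
    · exact hpn (hj3 p hp h1)
    · exact hpn (hj2 p hp h1)
  · refine ⟨?_, hx⟩
    have hfx : PiElt π (f x) := fun p hp hd => h p hp (hd.trans (orderOf_map_dvd f x))
    have hmemE : f x ∈ E := ⟨⟨x, hx, rfl⟩, fun r hr => (hcent x hx hfx r hr).symm⟩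
    refine ⟨⟨f x, hmemE⟩, ?_, rfl⟩
    rw [SetLike.mem_coe, ← QuotientGroup.eq_one_iff, ← orderOf_eq_one_iff]
    by_contra hne
    obtain ⟨q, hq, hqd⟩ := Nat.exists_prime_and_dvd hne
    have hWi : W.index = Nat.card Z := hW.index_eq_card
    have h1 : q ∣ Nat.card Z := by
      rw [← hWi, Subgroup.index_eq_card]
      exact hqd.trans (orderOf_dvd_natCard _)
    exact hZpi q hq h1 (hfx q hq (by
      have := hqd.trans (orderOf_map_dvd (QuotientGroup.mk' W) (⟨f x, hmemE⟩ : E))
      rwa [← Subgroup.orderOf_coe] at this))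

theorem backward (π : Set ℕ) {n : ℕ} (H : Fin (n + 1) → Subgroup G) (h0 : H 0 = ⊥) (hn : H (Fin.last n) = ⊤)
    (hmono : Monotone H) (hnor : ∀ i, (H i).Normal)
    (hfac : ∀ i : Fin n, (∀ q : ℕ, q.Prime → q ∣ (H i.castSucc).relIndex (H i.succ) → q ∈ π) ∨
      (∀ q : ℕ, q.Prime → q ∣ (H i.castSucc).relIndex (H i.succ) → q ∉ π))
    (hom : ∀ H : Subgroup G, H ≠ ⊥ → (∀ p : ℕ, p.Prime → p ∣ Nat.card H → p ∉ π) →
      ∀ p : ℕ, p.Prime → p ∣ (Subgroup.centralizer (H : Set G)).relIndex (Subgroup.normalizer (H : Set G)) → p ∉ π) :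
    ∃ K : Subgroup G, ∀ x : G, x ∈ K ↔ PiElt π x := by
  suffices key : ∀ i, ∃ K : Subgroup G, K ≤ H i ∧ ∀ x ∈ H i, x ∈ K ↔ PiElt π x by
    obtain ⟨K, -, hK⟩ := key (Fin.last n)
    exact ⟨K, fun x => hK x (hn ▸ Subgroup.mem_top x)⟩
  intro i
  induction i using Fin.induction with
  | zero =>
    refine ⟨⊥, bot_le, fun x hx => ?_⟩
    rw [h0, Subgroup.mem_bot] at hx
    subst hx
    exact ⟨fun _ p hp hd => absurd (Nat.dvd_one.mp (orderOf_one (G := G) ▸ hd)) hp.ne_one, fun _ => Subgroup.one_mem _⟩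
  | succ i ih =>
    obtain ⟨K, hKle, hK⟩ := ih
    haveI := hnor i.castSucc
    haveI := hnor i.succ
    exact step π hom _ _ (hmono (Fin.castSucc_le_succ i)) (hfac i) K hKle hK

theorem forward (π : Set ℕ) (K : Subgroup G) (hK : ∀ x : G, x ∈ K ↔ PiElt π x) :
    (∃ (n : ℕ) (H : Fin (n + 1) → Subgroup G), H 0 = ⊥ ∧ H (Fin.last n) = ⊤ ∧ Monotone H ∧ (∀ i, (H i).Normal) ∧
      ∀ i : Fin n, (∀ q : ℕ, q.Prime → q ∣ (H i.castSucc).relIndex (H i.succ) → q ∈ π) ∨
        (∀ q : ℕ, q.Prime → q ∣ (H i.castSucc).relIndex (H i.succ) → q ∉ π)) ∧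
     (∀ H : Subgroup G, H ≠ ⊥ → (∀ p : ℕ, p.Prime → p ∣ Nat.card ↥H → p ∉ π) →
        ∀ p : ℕ, p.Prime → p ∣ (Subgroup.centralizer (H : Set G)).relIndex (Subgroup.normalizer (H : Set G)) → p ∉ π) := by
  haveI hKn : K.Normal := ⟨fun x hx g => (hK _).mpr fun p hp hd => (hK x).mp hx p hp (by
    rwa [show g * x * g⁻¹ = MulAut.conj g x from rfl, MulEquiv.orderOf_eq] at hd)⟩
  have hidx : ∀ q : ℕ, q.Prime → q ∣ K.index → q ∉ π := by
    intro q hq hd hqπ
    haveI := Fact.mk hq
    rw [Subgroup.index_eq_card] at hd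
    obtain ⟨y, hy⟩ := exists_prime_orderOf_dvd_card' q hd
    obtain ⟨g, rfl⟩ := QuotientGroup.mk'_surjective K y
    obtain ⟨j, hj1, hj2⟩ := exists_part π (QuotientGroup.mk' K) g (fun p hp hd' => by
      rw [hy] at hd'; exact ((Nat.prime_dvd_prime_iff_eq hp hq).mp hd').symm ▸ hqπ)
    have h1 : QuotientGroup.mk' K (g ^ j) = 1 := (QuotientGroup.eq_one_iff _).mpr ((hK _).mpr hj2)
    rw [← hj1, h1, orderOf_one] at hy
    exact hq.ne_one hy.symm
  refine ⟨⟨2, ![⊥, K, ⊤], rfl, rfl, ?_, ?_, ?_⟩, ?_⟩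
  · intro a b hab
    fin_cases a <;> fin_cases b <;> simp_all
  · intro i
    fin_cases i
    · exact (inferInstance : (⊥ : Subgroup G).Normal)
    · exact hKn
    · exact (inferInstance : (⊤ : Subgroup G).Normal)
  · intro i
    fin_cases i
    · left
      intro q hq hd
      have hd' : q ∣ Nat.card K := by simpa [Subgroup.relIndex_bot_left] using hd
      exact pi_dvd (fun x hx => (hK x).mp hx) hq hd'
    · right
      intro q hq hd
      exact hidx q hq (by simpa [Subgroup.relIndex_top_right] using hd)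
  · intro H _ hH p hp hd hpπ
    haveI := Fact.mk hp
    haveI : ((Subgroup.centralizer (H : Set G)).subgroupOf (Subgroup.normalizer (H : Set G))).Normal := by
      rw [← Subgroup.normalizerMonoidHom_ker]; infer_instance
    rw [Subgroup.relIndex, Subgroup.index_eq_card] at hd
    obtain ⟨y, hy⟩ := exists_prime_orderOf_dvd_card' p hd
    obtain ⟨g, rfl⟩ := QuotientGroup.mk'_surjective _ y
    obtain ⟨j, hj1, hj2⟩ := exists_part π _ g (fun q hq hd' => by
      rw [hy] at hd'; exact ((Nat.prime_dvd_prime_iff_eq hq hp).mp hd').symm ▸ hpπ)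
    have hgK : ((g ^ j : Subgroup.normalizer (H : Set G)) : G) ∈ K := (hK _).mpr fun q hq hd' => hj2 q hq (by
      rwa [Subgroup.orderOf_coe] at hd')
    have hgC : ((g ^ j : Subgroup.normalizer (H : Set G)) : G) ∈ Subgroup.centralizer (H : Set G) := by
      rw [Subgroup.mem_centralizer_iff]
      intro h hh
      set w := ((g ^ j : Subgroup.normalizer (H : Set G)) : G)
      have hwn : w ∈ Subgroup.normalizer (H : Set G) := (g ^ j : Subgroup.normalizer (H : Set G)).2
      have h1 : ⁅w, h⁆ ∈ H := by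
        rw [commutatorElement_def]; exact H.mul_mem ((Subgroup.mem_normalizer_iff.mp hwn h).mp hh) (H.inv_mem hh)
      have h2 : ⁅w, h⁆ ∈ K := by
        rw [commutatorElement_def, show w * h * w⁻¹ * h⁻¹ = w * (h * w⁻¹ * h⁻¹) by group]
        exact K.mul_mem hgK (hKn.conj_mem _ (K.inv_mem hgK) h)
      have h3 : orderOf ⁅w, h⁆ = 1 := by
        by_contra hne
        obtain ⟨q, hq, hqd⟩ := Nat.exists_prime_and_dvd hne
        refine hH q hq (hqd.trans ?_) ((hK _).mp h2 q hq hqd)
        rw [← Subgroup.orderOf_mk _ h1]; exact orderOf_dvd_natCard _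
      exact (commutatorElement_eq_one_iff_mul_comm.mp (orderOf_eq_one_iff.mp h3)).symm
    have h1 : QuotientGroup.mk' ((Subgroup.centralizer (H : Set G)).subgroupOf (Subgroup.normalizer (H : Set G))) (g ^ j) = 1 :=
      (QuotientGroup.eq_one_iff _).mpr (Subgroup.mem_subgroupOf.mpr hgC)
    rw [← hj1, h1, orderOf_one] at hy
    exact hp.ne_one hy.symm

end CfsgLib.GroupB.PiClosed
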