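import Cfsg.Agent.S0126
import Cfsg.Agent.S0124
import Cfsg.Agent.Lib.PLocal.OddRankTwo
import Cfsg.Agent.Lib.GroupB.Coprime
import Cfsg.Agent.S0012
import Mathlib

/-! `p`-groups of rank two and normal elementary abelian subgroups of order `p^3`. -/

set_option autoImplicit false
set_option linter.style.haveILetI false
open scoped commutatorElement
open Cfsg

namespace CfsgLib.GroupB.RankTwoOdd

universe u

variable {R : Type u} [Group R] [Finite R] {p : ℕ} [hp : Fact p.Prime]

theorem le_center_of_card_prime (hR : IsPGroup p R) {N : Subgroup R} (hN : N.Normal) (hc : Nat.card N = p) :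
    N ≤ Subgroup.center R := by
  have h1 : N ⊓ Subgroup.center R ≠ ⊥ := PStep.normal_inf_center_ne_bot hR hN
    (fun h => hp.out.ne_one (by rw [← hc, h, Subgroup.card_bot]))
  have h2 : Nat.card (N ⊓ Subgroup.center R : Subgroup R) = p :=
    ((Nat.dvd_prime hp.out).mp (hc ▸ Subgroup.card_dvd_of_le inf_le_left)).resolve_left
      fun h => h1 (Subgroup.eq_bot_of_card_eq _ h)
  exact inf_eq_left.mp (Subgroup.eq_of_le_of_card_ge inf_le_left (by rw [h2, hc]))

/-- A normal subgroup of order `p²`: its centraliser has index at most `p` and contains the derived group. -/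
theorem normal_sq (hR : IsPGroup p R) {A : Subgroup R} (hA : A.Normal) (hab : IsMulCommutative A)
    (hc : Nat.card A = p ^ 2) :
    commutator R ≤ Subgroup.centralizer (A : Set R) ∧ (Subgroup.centralizer (A : Set R)).index ≤ p ∧
      ⁅A, (⊤ : Subgroup R)⁆ ≤ Subgroup.center R := by
  classical
  haveI := hA
  have hne : A ≠ ⊥ := fun h => by
    rw [h, Subgroup.card_bot] at hc
    exact (Nat.one_lt_pow two_ne_zero hp.out.one_lt).ne hc
  obtain ⟨⟨z, hzAc⟩, hz⟩ : ∃ w : ↥(A ⊓ Subgroup.center R : Subgroup R), orderOf w = p := by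
    refine exists_prime_orderOf_dvd_card' p ?_
    have : Nontrivial ↥(A ⊓ Subgroup.center R : Subgroup R) :=
      (Subgroup.nontrivial_iff_ne_bot _).mpr (PStep.normal_inf_center_ne_bot hR hA hne)
    obtain ⟨k, hk, hck⟩ := (IsPGroup.nontrivial_iff_card (hR.to_subgroup _)).mp this
    rw [hck]; exact dvd_pow_self p hk.ne'
  rw [Subgroup.orderOf_mk] at hz
  obtain ⟨hzA, hzc⟩ := hzAc
  set Z := Subgroup.zpowers z with hZ
  have hZA : Z ≤ A := Subgroup.zpowers_le.mpr hzA
  have hZc : Z ≤ Subgroup.center R := Subgroup.zpowers_le.mpr hzc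
  haveI hZn : Z.Normal := ⟨fun x hx g => by rw [Subgroup.mem_center_iff.mp (hZc hx) g, mul_inv_cancel_right]; exact hx⟩
  have hcZ : Nat.card Z = p := by rw [Nat.card_zpowers, hz]
  set π := QuotientGroup.mk' Z
  have hAb : Nat.card (A.map π) = p := by
    have h1 := Subgroup.relIndex_ker (K := A) π
    rw [QuotientGroup.ker_mk'] at h1
    have h2 := Subgroup.relIndex_mul_relIndex ⊥ Z A bot_le hZA
    rw [Subgroup.relIndex_bot_left, Subgroup.relIndex_bot_left, hcZ, h1, hc, sq] at h2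
    exact Nat.eq_of_mul_eq_mul_left hp.out.pos h2
  have hcomm : ∀ a ∈ A, ∀ g : R, ⁅g, a⁆ ∈ Z := by
    intro a ha g
    rw [← QuotientGroup.eq_one_iff, ← QuotientGroup.mk'_apply, map_commutatorElement, commutatorElement_eq_one_iff_mul_comm]
    exact Subgroup.mem_center_iff.mp (le_center_of_card_prime (hR.to_quotient Z)
      (Subgroup.Normal.map hA π (QuotientGroup.mk'_surjective Z)) hAb (Subgroup.mem_map_of_mem π ha)) (π g)
  obtain ⟨a₀, ha₀, ha₀Z⟩ : ∃ a ∈ A, a ∉ Z := by
    by_contra h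
    push Not at h
    have := Subgroup.card_le_of_le h
    rw [hc, hcZ, sq] at this
    nlinarith [hp.out.two_le]
  have hgen : Subgroup.zpowers a₀ ⊔ Z = A := by
    have hle : Subgroup.zpowers a₀ ⊔ Z ≤ A := sup_le (Subgroup.zpowers_le.mpr ha₀) hZA
    refine Subgroup.eq_of_le_of_card_ge hle ?_
    rw [hc]
    obtain ⟨k, hk⟩ := IsPGroup.iff_card.mp (hR.to_subgroup (Subgroup.zpowers a₀ ⊔ Z))
    have h1 : Nat.card Z < Nat.card (Subgroup.zpowers a₀ ⊔ Z : Subgroup R) := by
      refine lt_of_le_of_ne (Subgroup.card_le_of_le le_sup_right) fun e => ha₀Z ?_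
      rw [Subgroup.eq_of_le_of_card_ge le_sup_right e.ge]
      exact Subgroup.mem_sup_left (Subgroup.mem_zpowers a₀)
    rw [hcZ, hk] at h1
    nth_rewrite 1 [← pow_one p] at h1
    rw [hk]
    exact Nat.pow_le_pow_right hp.out.pos ((Nat.pow_lt_pow_iff_right hp.out.one_lt).mp h1)
  let φ : R →* Z := MonoidHom.mk' (fun g => ⟨⁅g, a₀⁆, hcomm a₀ ha₀ g⟩) fun g h => Subtype.ext (by
    show ⁅g * h, a₀⁆ = ⁅g, a₀⁆ * ⁅h, a₀⁆
    have h1 := Subgroup.mem_center_iff.mp (hZc (hcomm a₀ ha₀ h)) g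
    calc ⁅g * h, a₀⁆ = g * ⁅h, a₀⁆ * g⁻¹ * ⁅g, a₀⁆ := by rw [commutatorElement_def, commutatorElement_def, commutatorElement_def]; group
      _ = ⁅h, a₀⁆ * ⁅g, a₀⁆ := by rw [h1, mul_inv_cancel_right]
      _ = ⁅g, a₀⁆ * ⁅h, a₀⁆ := (Subgroup.mem_center_iff.mp (hZc (hcomm a₀ ha₀ h)) _).symm)
  have hker : φ.ker ≤ Subgroup.centralizer (A : Set R) := by
    intro g hg
    have h1 : ⁅g, a₀⁆ = 1 := congrArg Subtype.val (MonoidHom.mem_ker.mp hg)
    have hle : A ≤ Subgroup.centralizer ({g} : Set R) := by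
      rw [← hgen]
      refine sup_le (Subgroup.zpowers_le.mpr (Subgroup.mem_centralizer_singleton_iff.mpr ?_)) fun w hw => ?_
      · exact (commutatorElement_eq_one_iff_mul_comm.mp h1).symm
      · exact Subgroup.mem_centralizer_singleton_iff.mpr (Subgroup.mem_center_iff.mp (hZc hw) g).symm
    exact Subgroup.mem_centralizer_iff.mpr fun a ha => Subgroup.mem_centralizer_singleton_iff.mp (hle ha)
  refine ⟨le_trans (Subgroup.commutator_le.mpr fun g _ h _ => MonoidHom.mem_ker.mpr ?_) hker, ?_, ?_⟩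
  · rw [map_commutatorElement]
    exact Subtype.ext (commutatorElement_eq_one_iff_commute.mpr
      (Subgroup.mem_center_iff.mp (hZc (φ h).2) _ : ((φ g : Z) : R) * (φ h : Z) = (φ h : Z) * (φ g : Z)))
  · refine (Nat.le_of_dvd (Nat.pos_of_ne_zero Subgroup.index_ne_zero_of_finite) (Subgroup.index_dvd_of_le hker)).trans ?_
    rw [Subgroup.index_ker]
    exact hcZ ▸ Subgroup.card_le_card_group _
  · refine Subgroup.commutator_le.mpr fun a ha g _ => ?_
    rw [← commutatorElement_inv]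
    exact Subgroup.inv_mem _ (hZc (hcomm a ha g))

/-- **Blackburn**: in a group of rank two, `p > 3`, the product of two elements of order `p` has order dividing `p`. -/
theorem mul_pow_eq_one (hp3 : 3 < p) (n : ℕ) : ∀ (R : Type u) [Group R] [Finite R], Nat.card R = n → IsPGroup p R →
    (∀ E : Subgroup R, IsElementaryAbelian p E → Nat.card E ≤ p ^ 2) → ∀ x y : R, x ^ p = 1 → y ^ p = 1 →
      (x * y) ^ p = 1 := by
  induction n using Nat.strong_induction_on with
  | _ n ih =>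
  intro R _ _ hn hR hrk x y hx hy
  classical
  have hsub : ∀ K : Subgroup R, K ≠ ⊤ → ∀ a ∈ K, ∀ b ∈ K, a ^ p = 1 → b ^ p = 1 → (a * b) ^ p = 1 := by
    intro K hK a ha b hb hap hbp
    have h := ih _ (hn ▸ lt_of_le_of_ne (Subgroup.card_le_card_group K) fun h' => hK (Subgroup.eq_top_of_card_eq K h'))
      K rfl (hR.to_subgroup K) (fun E hE => ?_) ⟨a, ha⟩ ⟨b, hb⟩ (Subtype.ext hap) (Subtype.ext hbp)
    · exact congrArg Subtype.val h
    · rw [← Subgroup.card_map_of_injective K.subtype_injective]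
      refine hrk _ ⟨?_, ?_⟩
      · haveI := hE.1; infer_instance
      · rintro _ ⟨e, he, rfl⟩
        rw [← map_pow, hE.2 e he, map_one]
  by_cases hK : Subgroup.closure ({x, y} : Set R) = ⊤
  swap
  · exact hsub _ hK x (Subgroup.subset_closure (by simp)) y (Subgroup.subset_closure (by simp)) hx hy
  by_cases hcy : IsCyclic R
  · letI := IsCyclic.commGroup (α := R)
    rw [mul_pow, hx, hy, one_mul]
  obtain ⟨A, hAn, hAel, hAc⟩ := Cfsg.Agent.S0126.result (by omega : p ≠ 2) hR hcy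
  haveI := hAn
  obtain ⟨hder, -, hA2⟩ := normal_sq hR hAn hAel.1 hAc
  have hp' := hp.out
  -- the commutator of the generators lies in `A`
  set c := ⁅y, x⁆ with hc
  have hcp : c ^ p = 1 := by
    by_cases htop : Subgroup.closure ({y * x * y⁻¹, x⁻¹} : Set R) = ⊤
    · exfalso
      have hΦ : commutator R ≤ frattini R := (Cfsg.Agent.S0012.result p hR).1
      have h1 : Subgroup.zpowers x ⊔ frattini R = ⊤ := top_le_iff.mp <| by
        rw [← htop, Subgroup.closure_le]
        rintro w (rfl | rfl)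
        · refine (show (y * x * y⁻¹ * x⁻¹) * x = y * x * y⁻¹ by group) ▸ Subgroup.mul_mem _ (Subgroup.mem_sup_right (hΦ ?_))
            (Subgroup.mem_sup_left (Subgroup.mem_zpowers x))
          exact Subgroup.commutator_mem_commutator (Subgroup.mem_top y) (Subgroup.mem_top x)
        · exact Subgroup.mem_sup_left (Subgroup.inv_mem _ (Subgroup.mem_zpowers x))
      exact hcy (isCyclic_iff_exists_zpowers_eq_top.mpr ⟨x, frattini_nongenerating h1⟩)
    · rw [hc, commutatorElement_def]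
      exact hsub _ htop _ (Subgroup.subset_closure (by simp)) _ (Subgroup.subset_closure (by simp))
        (by rw [conj_pow, hx, mul_one, mul_inv_cancel]) (by rw [inv_pow, hx, inv_one])
  have hcA : c ∈ A := by
    have hcC : c ∈ Subgroup.centralizer (A : Set R) :=
      hder (Subgroup.commutator_mem_commutator (Subgroup.mem_top y) (Subgroup.mem_top x))
    have hel : IsElementaryAbelian p (A ⊔ Subgroup.zpowers c) :=
      CfsgLib.PLocal.el_sup hAel (CfsgLib.PLocal.el_zpowers hcp) fun a ha b hb => by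
        obtain ⟨k, rfl⟩ := hb
        exact ((show Commute a c from Subgroup.mem_centralizer_iff.mp hcC a ha).zpow_right k).eq
    rw [Subgroup.eq_of_le_of_card_ge (le_sup_left : A ≤ A ⊔ Subgroup.zpowers c) (hAc ▸ hrk _ hel)]
    exact Subgroup.mem_sup_right (Subgroup.mem_zpowers c)
  have hdA : commutator R ≤ A := by
    let π := QuotientGroup.mk' A
    have hyx : Commute (π y) (π x) :=
      commutatorElement_eq_one_iff_commute.mp (by rw [← map_commutatorElement]; exact (QuotientGroup.eq_one_iff c).mpr hcA)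
    haveI : IsMulCommutative (Subgroup.closure ({π x, π y} : Set (R ⧸ A))) := by
      refine Subgroup.isMulCommutative_closure ?_
      rintro a (rfl | rfl) b (rfl | rfl)
      exacts [rfl, hyx.eq.symm, hyx.eq, rfl]
    refine Subgroup.commutator_le.mpr fun g _ h _ => (QuotientGroup.eq_one_iff _).mp ?_
    show π ⁅g, h⁆ = 1
    have hmem : ∀ g : R, π g ∈ Subgroup.closure ({π x, π y} : Set (R ⧸ A)) := fun g => by
      rw [show ({π x, π y} : Set (R ⧸ A)) = π '' {x, y} by simp [Set.image_pair], ← MonoidHom.map_closure, hK]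
      exact Subgroup.mem_map_of_mem π (Subgroup.mem_top g)
    rw [map_commutatorElement, commutatorElement_eq_one_iff_mul_comm]
    exact congrArg Subtype.val (mul_comm' (⟨_, hmem g⟩ : Subgroup.closure ({π x, π y} : Set (R ⧸ A))) ⟨_, hmem h⟩)
  have hcl : ⁅⁅commutator R, (⊤ : Subgroup R)⁆, (⊤ : Subgroup R)⁆ = ⊥ := le_bot_iff.mp <|
    (Subgroup.commutator_mono ((Subgroup.commutator_mono hdA le_rfl).trans hA2) le_rfl).trans
      (Subgroup.commutator_top_right_eq_bot_iff_le_center.mpr le_rfl).le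
  exact Cfsg.Agent.S0124.result hp3 hR hcl _ (Subgroup.mul_mem _ (Subgroup.subset_closure hx) (Subgroup.subset_closure hy))

/-- An elementary abelian extension of index `p` over a normal elementary abelian subgroup can be chosen normal. -/
theorem exists_normal_ext (hp2 : p ≠ 2) (hR : IsPGroup p R) {A : Subgroup R} (hAn : A.Normal)
    (hAel : IsElementaryAbelian p A) {x : R} (hxC : ∀ a ∈ A, a * x = x * a) (hxp : x ^ p = 1) (hxA : x ∉ A) :
    ∃ B : Subgroup R, B.Normal ∧ A ≤ B ∧ IsElementaryAbelian p B ∧ Nat.card B = Nat.card A * p := by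
  classical
  haveI := hAn
  have hAlt : Nat.card A < Nat.card A * p := lt_mul_of_one_lt_right Nat.card_pos hp.out.one_lt
  -- elementary subgroups of order `p³` between `A` and its centraliser
  let S : Set (Subgroup R) := {B | A ≤ B ∧ IsElementaryAbelian p B ∧ Nat.card B = Nat.card A * p}
  have hsup : ∀ {B : Subgroup R}, IsElementaryAbelian p B → ∀ x : R, (∀ b ∈ B, b * x = x * b) → x ^ p = 1 → x ∉ B →
      IsElementaryAbelian p (B ⊔ Subgroup.zpowers x) ∧ Nat.card (B ⊔ Subgroup.zpowers x : Subgroup R) = Nat.card B * p := by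
    intro B hB x hx hxp hxB
    have hel : IsElementaryAbelian p (B ⊔ Subgroup.zpowers x) := CfsgLib.PLocal.el_sup hB (CfsgLib.PLocal.el_zpowers hxp)
      fun b hb c hc => by obtain ⟨k, rfl⟩ := hc; exact ((show Commute b x from hx b hb).zpow_right k).eq
    refine ⟨hel, ?_⟩
    have hxN : Subgroup.zpowers x ≤ Subgroup.normalizer (B : Set R) := by
      refine Subgroup.zpowers_le.mpr (Subgroup.mem_normalizer_iff.mpr fun b => ⟨fun hb => by rwa [← hx b hb, mul_inv_cancel_right], fun hb => by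
        have h := hx _ hb
        rw [show x * b * x⁻¹ * x = x * b by group] at h
        rwa [← mul_left_cancel h] at hb⟩)
    rw [← Subgroup.relIndex_bot_left (B ⊔ Subgroup.zpowers x), ← Subgroup.relIndex_mul_relIndex _ _ _ bot_le le_sup_left,
      Subgroup.relIndex_bot_left, CfsgLib.GroupB.Coprime.relIndex_sup_of_le_normalizer hxN]
    congr 1
    have hd : B.relIndex (Subgroup.zpowers x) ∣ p :=
      (Subgroup.relIndex_dvd_card B _).trans (by rw [Nat.card_zpowers]; exact orderOf_dvd_of_pow_eq_one hxp)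
    exact ((Nat.dvd_prime hp.out).mp hd).resolve_left fun h => hxB (Subgroup.relIndex_eq_one.mp h (Subgroup.mem_zpowers x))
  have hSne : ∃ B, B ∈ S := ⟨_, le_sup_left, (hsup hAel x hxC hxp hxA).1, (hsup hAel x hxC hxp hxA).2⟩
  obtain ⟨B, hB, hmax⟩ := Set.exists_max_image S (fun B => Nat.card (Subgroup.normalizer (B : Set R))) (Set.toFinite _) hSne
  obtain ⟨hAB, hBel, hBc⟩ := hB
  refine ⟨B, ?_, hAB, hBel, hBc⟩
  rw [← Subgroup.normalizer_eq_top_iff]
  by_contra hN
  set N := Subgroup.normalizer (B : Set R) with hNdef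
  set M := Subgroup.normalizer (N : Set R) with hMdef
  haveI := hR.isNilpotent
  have hlt : N < M := Group.normalizerCondition_of_isNilpotent (G := R) N (lt_top_iff_ne_top.mpr hN)
  -- the product of the conjugates under `M`
  set T : Set R := {w | ∃ g ∈ M, ∃ b ∈ B, w = g * b * g⁻¹} with hT
  have hTN : ∀ g ∈ M, ∀ b ∈ B, g * b * g⁻¹ ∈ N := fun g hg b hb =>
    (Subgroup.mem_normalizer_iff.mp hg b).mp (Subgroup.le_normalizer hb)
  have hAT : ∀ a ∈ A, ∀ t ∈ T, a * t = t * a := by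
    rintro a ha _ ⟨g, hg, b, hb, rfl⟩
    haveI := hBel.1
    have h1 := congrArg Subtype.val (mul_comm' (⟨g⁻¹ * a * g, hAB (by simpa using hAn.conj_mem a ha g⁻¹)⟩ : B) ⟨b, hb⟩)
    simp only [Subgroup.coe_mul] at h1
    calc a * (g * b * g⁻¹) = g * ((g⁻¹ * a * g) * b) * g⁻¹ := by group
      _ = g * (b * (g⁻¹ * a * g)) * g⁻¹ := by rw [h1]
      _ = g * b * g⁻¹ * a := by group
  have hTc : ∀ s ∈ T, ∀ t ∈ T, ⁅s, t⁆ ∈ A := by
    -- conjugates normalise one another
    have key : ∀ g ∈ M, ∀ b ∈ B, ∀ b' ∈ B, ⁅g * b * g⁻¹, b'⁆ ∈ A := by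
      intro g hg b hb b' hb'
      set y := g * b * g⁻¹
      have h1 : ⁅y, b'⁆ ∈ B := B.mul_mem ((Subgroup.mem_normalizer_iff.mp (hTN g hg b hb) b').mp hb') (B.inv_mem hb')
      have h2 : ⁅y, b'⁆ ∈ B.map (MulAut.conj g).toMonoidHom := by
        have h3 : g⁻¹ * b' * g ∈ N := by simpa using hTN g⁻¹ (M.inv_mem hg) b' hb'
        refine ⟨b * ((g⁻¹ * b' * g) * b⁻¹ * (g⁻¹ * b' * g)⁻¹),
          B.mul_mem hb ((Subgroup.mem_normalizer_iff.mp h3 b⁻¹).mp (B.inv_mem hb)), ?_⟩
        show g * _ * g⁻¹ = _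
        simp only [commutatorElement_def, y]; group
      by_contra hA'
      -- otherwise `B` and its conjugate coincide
      have hAx : B = A ⊔ Subgroup.zpowers ⁅y, b'⁆ := by
        obtain ⟨hel', hc'⟩ := hsup hAel ⁅y, b'⁆ (fun a ha => by
          haveI := hBel.1
          exact congrArg Subtype.val (mul_comm' (⟨a, hAB ha⟩ : B) ⟨_, h1⟩)) (hBel.2 _ h1) hA'
        exact (Subgroup.eq_of_le_of_card_ge (sup_le hAB (Subgroup.zpowers_le.mpr h1))
          (by rw [hc', hBc])).symm
      have hle : B ≤ B.map (MulAut.conj g).toMonoidHom := by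
        rw [hAx]
        refine sup_le (fun a ha => ⟨g⁻¹ * a * g, hAx ▸ hAB (by simpa using hAn.conj_mem a ha g⁻¹), show g * _ * g⁻¹ = a by group⟩)
          (Subgroup.zpowers_le.mpr (hAx ▸ h2))
      have heq : B = B.map (MulAut.conj g).toMonoidHom := Subgroup.eq_of_le_of_card_ge hle
        (Subgroup.card_map_of_injective (MulAut.conj g).injective).le
      have hy : y ∈ B := heq ▸ (⟨b, hb, rfl⟩ : y ∈ B.map (MulAut.conj g).toMonoidHom)
      haveI := hBel.1
      refine hA' ?_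
      rw [commutatorElement_eq_one_iff_mul_comm.mpr (congrArg Subtype.val (mul_comm' (⟨y, hy⟩ : B) ⟨b', hb'⟩))]
      exact A.one_mem
    rintro _ ⟨g, hg, b, hb, rfl⟩ _ ⟨g', hg', b', hb', rfl⟩
    have h := key (g'⁻¹ * g) (M.mul_mem (M.inv_mem hg') hg) b hb b' hb'
    have e : ⁅g * b * g⁻¹, g' * b' * g'⁻¹⁆ = g' * ⁅g'⁻¹ * g * b * (g'⁻¹ * g)⁻¹, b'⁆ * g'⁻¹ := by
      simp only [commutatorElement_def]; group
    rw [e]
    exact hAn.conj_mem _ h g'
  set W := Subgroup.closure T with hW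
  have hBW : B ≤ W := fun b hb => Subgroup.subset_closure ⟨1, M.one_mem, b, hb, by simp⟩
  have hAW : A ≤ W := hAB.trans hBW
  have hAcW : ∀ a ∈ A, ∀ w ∈ W, Commute a w := fun a ha w hw => by
    have h : W ≤ Subgroup.centralizer ({a} : Set R) := (Subgroup.closure_le _).mpr fun t ht =>
      Subgroup.mem_centralizer_singleton_iff.mpr (hAT a ha t ht).symm
    exact (Subgroup.mem_centralizer_singleton_iff.mp (h hw)).symm
  let π := QuotientGroup.mk' A
  have hWab : ∀ v ∈ W, ∀ w ∈ W, ⁅v, w⁆ ∈ A := by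
    haveI : IsMulCommutative (Subgroup.closure (π '' T)) := Subgroup.isMulCommutative_closure (by
      rintro _ ⟨s, hs, rfl⟩ _ ⟨t, ht, rfl⟩
      refine commutatorElement_eq_one_iff_mul_comm.mp ?_
      rw [← map_commutatorElement]
      exact (QuotientGroup.eq_one_iff _).mpr (hTc s hs t ht))
    intro v hv w hw
    refine (QuotientGroup.eq_one_iff _).mp ?_
    show π ⁅v, w⁆ = 1
    have hmem : ∀ u ∈ W, π u ∈ Subgroup.closure (π '' T) := fun u hu => by
      rw [← MonoidHom.map_closure]; exact Subgroup.mem_map_of_mem π hu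
    rw [map_commutatorElement, commutatorElement_eq_one_iff_mul_comm]
    exact congrArg Subtype.val (mul_comm' (⟨_, hmem v hv⟩ : Subgroup.closure (π '' T)) ⟨_, hmem w hw⟩)
  have hWexp : ∀ w ∈ W, w ^ p = 1 := by
    intro w hw
    induction hw using Subgroup.closure_induction with
    | mem t ht =>
      obtain ⟨g, -, b, hb, rfl⟩ := ht
      rw [conj_pow, hBel.2 b hb, mul_one, mul_inv_cancel]
    | one => exact one_pow p
    | mul v w hv hw hvp hwp =>
      have hA' := hWab w hw v hv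
      rw [CfsgLib.PLocal.mul_pow_prime hp.out hp2 (hAcW _ hA' v hv) (hAcW _ hA' w hw) (hAel.2 _ hA'), hvp, hwp, one_mul]
    | inv v _ hvp => rw [inv_pow, hvp, inv_one]
  have hMW : M ≤ Subgroup.normalizer (W : Set R) := CfsgLib.GroupB.Coprime.le_normalizer_of_conj_mem fun m hm w hw => by
    induction hw using Subgroup.closure_induction with
    | mem t ht =>
      obtain ⟨g, hg, b, hb, rfl⟩ := ht
      exact Subgroup.subset_closure ⟨m * g, M.mul_mem hm hg, b, hb, by group⟩
    | one => simp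
    | mul v w _ _ h1 h2 => simpa [mul_assoc] using W.mul_mem h1 h2
    | inv v _ h1 => simpa [mul_assoc] using W.inv_mem h1
  -- an `M`-invariant member of `S` inside `W`
  set H := M.map π
  have hBM : B ≤ M := Subgroup.le_normalizer.trans hlt.le
  have hWM : W ≤ M := (Subgroup.closure_le _).mpr (by
    rintro _ ⟨g, hg, b, hb, rfl⟩
    exact M.mul_mem (M.mul_mem hg (hBM hb)) (M.inv_mem hg))
  set Wb := (W.map π).subgroupOf H
  haveI : Wb.Normal := Subgroup.normal_subgroupOf_of_le_normalizer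
    ((Subgroup.map_mono hMW).trans (Subgroup.le_normalizer_map π))
  have hWb : Wb ≠ ⊥ := fun h => by
    obtain ⟨b, hb, hbA⟩ : ∃ b ∈ B, b ∉ A := by
      by_contra h'
      push Not at h'
      have := Subgroup.card_le_of_le h'
      rw [hBc] at this
      exact absurd this (not_le.mpr hAlt)
    have h1 : (⟨π b, Subgroup.mem_map_of_mem π (hBM hb)⟩ : H) ∈ Wb := Subgroup.mem_map_of_mem π (hBW hb)
    rw [h, Subgroup.mem_bot] at h1
    exact hbA ((QuotientGroup.eq_one_iff b).mp (congrArg Subtype.val h1))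
  obtain ⟨⟨v, hv⟩, hvW, hv1⟩ := (Subgroup.bot_or_exists_ne_one _).resolve_left
    (PStep.normal_inf_center_ne_bot ((hR.to_quotient A).to_subgroup H) inferInstance hWb)
  obtain ⟨w, hw, rfl⟩ := (show v ∈ W.map π from hvW.1)
  have hwA : w ∉ A := fun h => hv1 (Subtype.ext ((QuotientGroup.eq_one_iff w).mpr h))
  obtain ⟨hel', hc'⟩ := hsup hAel w (fun a ha => (hAcW a ha w hw).eq) (hWexp w hw) hwA
  have hM' : M ≤ Subgroup.normalizer ((A ⊔ Subgroup.zpowers w : Subgroup R) : Set R) := by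
    refine CfsgLib.GroupB.Coprime.le_normalizer_of_conj_mem fun m hm u hu => ?_
    have hcen := congrArg Subtype.val (Subgroup.mem_center_iff.mp hvW.2 ⟨π m, Subgroup.mem_map_of_mem π hm⟩)
    simp only [Subgroup.coe_mul] at hcen
    have hle : A ⊔ Subgroup.zpowers w ≤ (A ⊔ Subgroup.zpowers w).comap (MulAut.conj m).toMonoidHom := by
      refine sup_le (fun a ha => Subgroup.mem_sup_left (hAn.conj_mem a ha m)) (Subgroup.zpowers_le.mpr ?_)
      refine Subgroup.mem_comap.mpr ?_
      show m * w * m⁻¹ ∈ A ⊔ Subgroup.zpowers w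
      have h1 : (m * w * m⁻¹) * w⁻¹ ∈ A := (QuotientGroup.eq_one_iff _).mp (by
        show π ((m * w * m⁻¹) * w⁻¹) = 1
        rw [map_mul, map_mul, map_mul, map_inv, map_inv, hcen, mul_inv_cancel_right, mul_inv_cancel])
      simpa using Subgroup.mul_mem _ (Subgroup.mem_sup_left (T := Subgroup.zpowers w) h1) (Subgroup.mem_sup_right (Subgroup.mem_zpowers w))
    exact hle hu
  have h1 := hmax _ (show A ⊔ Subgroup.zpowers w ∈ S from ⟨le_sup_left, hel', hc'⟩)
  have h2 : Nat.card N < Nat.card M := lt_of_le_of_ne (Subgroup.card_le_of_le hlt.le)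
    fun e => hlt.ne (Subgroup.eq_of_le_of_card_ge hlt.le e.ge)
  have h3 := Subgroup.card_le_of_le hM'
  omega

/-- For odd `p`, a `p`-group with an elementary abelian subgroup of order `p³` has a normal one. -/
theorem exists_normal_cube (hp2 : p ≠ 2) (hR : IsPGroup p R) {E : Subgroup R} (hE : IsElementaryAbelian p E)
    (hEc : p ^ 2 < Nat.card E) : ∃ B : Subgroup R, B.Normal ∧ IsElementaryAbelian p B ∧ Nat.card B = p ^ 3 := by
  classical
  have hncy : ¬ IsCyclic R := fun h => by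
    haveI := Subgroup.isCyclic E
    obtain ⟨g, hg⟩ := IsCyclic.exists_generator (α := E)
    have h1 : Nat.card E ≤ p := by
      rw [← orderOf_eq_card_of_forall_mem_zpowers hg, ← Subgroup.orderOf_coe]
      exact Nat.le_of_dvd hp.out.pos (orderOf_dvd_of_pow_eq_one (hE.2 g g.2))
    have := hp.out.two_le
    nlinarith
  obtain ⟨A, hAn, hAel, hAc⟩ := Cfsg.Agent.S0126.result hp2 hR hncy
  haveI := hAn
  obtain ⟨-, hidx, -⟩ := normal_sq hR hAn hAel.1 hAc
  set C := Subgroup.centralizer (A : Set R) with hC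
  haveI : C.Normal := Subgroup.normal_centralizer
  have hSne : ∃ x, (∀ a ∈ A, a * x = x * a) ∧ x ^ p = 1 ∧ x ∉ A := by
    obtain ⟨x, hxE, hxC, hxA⟩ : ∃ x ∈ E, x ∈ C ∧ x ∉ A := by
      by_contra h
      push Not at h
      have h1 : E ⊓ C ≤ A := fun x hx => h x hx.1 hx.2
      have h2 : Nat.card E ≤ Nat.card (E ⊓ C : Subgroup R) * p := by
        rw [← Subgroup.relIndex_bot_left E, ← Subgroup.relIndex_mul_relIndex _ _ _ bot_le (inf_le_left : E ⊓ C ≤ E),
          Subgroup.relIndex_bot_left, inf_comm E C, Subgroup.inf_relIndex_right]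
        exact Nat.mul_le_mul_left _ ((Nat.le_of_dvd (Nat.pos_of_ne_zero Subgroup.index_ne_zero_of_finite)
          (Subgroup.relIndex_dvd_index_of_normal C E)).trans hidx)
      by_cases heq : E ⊓ C = A
      · -- then `E` centralises `A`
        have hAE : A ≤ E := heq ▸ inf_le_left
        haveI := hE.1
        have hEC : E ≤ C := fun e he => Subgroup.mem_centralizer_iff.mpr fun a ha =>
          congrArg Subtype.val (mul_comm' (⟨a, hAE ha⟩ : E) ⟨e, he⟩)
        have := Subgroup.card_le_of_le (fun e he => h e he (hEC he) : E ≤ A)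
        rw [hAc] at this
        omega
      · have h3 : Nat.card (E ⊓ C : Subgroup R) < p ^ 2 := hAc ▸ lt_of_le_of_ne (Subgroup.card_le_of_le h1)
          fun e => heq (Subgroup.eq_of_le_of_card_ge h1 e.ge)
        obtain ⟨j, hj⟩ := IsPGroup.iff_card.mp (hR.to_subgroup (E ⊓ C : Subgroup R))
        rw [hj] at h3 h2
        have hj1 : p ^ j ≤ p := by
          nth_rewrite 2 [← pow_one p]
          exact Nat.pow_le_pow_right hp.out.pos (by have := (Nat.pow_lt_pow_iff_right hp.out.one_lt).mp h3; omega)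
        have := Nat.mul_le_mul_right p hj1
        rw [← sq] at this
        omega
    exact ⟨x, fun a ha => Subgroup.mem_centralizer_iff.mp hxC a ha, hE.2 x hxE, hxA⟩
  obtain ⟨x, hxC, hxp, hxA⟩ := hSne
  obtain ⟨B, hBn, -, hBel, hBc⟩ := exists_normal_ext hp2 hR hAn hAel hxC hxp hxA
  exact ⟨B, hBn, hBel, by rw [hBc, hAc, ← pow_succ]⟩

/-- For odd `p`, a `p`-group with an elementary abelian subgroup of order `p⁴` has a normal one. -/
theorem exists_normal_four (hp2 : p ≠ 2) (n : ℕ) : ∀ (R : Type u) [Group R] [Finite R], Nat.card R = n → IsPGroup p R →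
    ∀ E : Subgroup R, IsElementaryAbelian p E → Nat.card E = p ^ 4 →
      ∃ A : Subgroup R, A.Normal ∧ IsElementaryAbelian p A ∧ Nat.card A = p ^ 4 := by
  induction n using Nat.strong_induction_on with
  | _ n ih =>
  intro R _ _ hn hR E₀ hE₀ hE₀c
  classical
  by_contra hbad
  haveI := hR.isNilpotent
  obtain ⟨M, hM, hEM⟩ : ∃ M : Subgroup R, IsCoatom M ∧ E₀ ≤ M := by
    rcases IsCoatomic.eq_top_or_exists_le_coatom E₀ with h | ⟨M, hM, hle⟩
    · exact absurd ⟨E₀, h ▸ inferInstance, hE₀, hE₀c⟩ hbad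
    · exact ⟨M, hM, hle⟩
  haveI hMn : M.Normal := Subgroup.NormalizerCondition.normal_of_coatom M Group.normalizerCondition_of_isNilpotent hM
  -- an elementary subgroup normal in `M`
  obtain ⟨E', hE'n, hE', hE'c⟩ := ih _
    (hn ▸ lt_of_le_of_ne (Subgroup.card_le_card_group M) fun h' => hM.1 (Subgroup.eq_top_of_card_eq M h'))
    M rfl (hR.to_subgroup M) (E₀.subgroupOf M)
    ⟨by haveI := hE₀.1; infer_instance, fun e he => Subtype.ext (hE₀.2 e he)⟩
    (by rw [Nat.card_congr (Subgroup.subgroupOfEquivOfLe hEM).toEquiv, hE₀c])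
  set E := E'.map M.subtype with hEdef
  have hEel : IsElementaryAbelian p E := ⟨by haveI := hE'.1; infer_instance, by
    rintro _ ⟨e, he, rfl⟩; rw [← map_pow, hE'.2 e he, map_one]⟩
  have hEc : Nat.card E = p ^ 4 := by rw [hEdef, Subgroup.card_map_of_injective M.subtype_injective, hE'c]
  have hEM' : E ≤ M := Subgroup.map_subtype_le _
  have hME : M ≤ Subgroup.normalizer (E : Set R) := CfsgLib.GroupB.Coprime.le_normalizer_of_conj_mem fun m hm e he => by
    obtain ⟨e', he', rfl⟩ := he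
    exact ⟨_, hE'n.conj_mem e' he' ⟨m, hm⟩, rfl⟩
  obtain ⟨B, hBn, hBel, hBc⟩ := exists_normal_cube hp2 hR hEel
    (hEc ▸ Nat.pow_lt_pow_right hp.out.one_lt (by norm_num))
  haveI := hBn
  set C := Subgroup.centralizer (B : Set R) with hC
  have hBC : B ≤ C := fun b hb => Subgroup.mem_centralizer_iff.mpr fun b' hb' => by
    haveI := hBel.1
    exact congrArg Subtype.val (mul_comm' (⟨b', hb'⟩ : B) ⟨b, hb⟩)
  have hΩ : ∀ c ∈ C, c ^ p = 1 → c ∈ B := by
    intro c hc hcp
    by_contra hcB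
    obtain ⟨A, hAn, -, hAel, hAc⟩ := exists_normal_ext hp2 hR hBn hBel (Subgroup.mem_centralizer_iff.mp hc) hcp hcB
    exact hbad ⟨A, hAn, hAel, by rw [hAc, hBc, ← pow_succ]⟩
  -- facts for every conjugate of `E`
  have facts : ∀ E : Subgroup R, IsElementaryAbelian p E → Nat.card E = p ^ 4 →
      Nat.card (E ⊓ B : Subgroup R) = p ^ 2 ∧ ∀ b ∈ B, b ∉ E →
        (∀ e ∈ E, ⁅e, b⁆ ∈ E ⊓ B) ∧ ∀ f ∈ E ⊓ B, ∃ e ∈ E, ⁅e, b⁆ = f := by
    intro E hEel hEc
    haveI := hEel.1
    haveI := hBel.1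
    have hcE : ∀ a ∈ E, ∀ b ∈ E, Commute a b := fun a ha b hb => congrArg Subtype.val (mul_comm' (⟨a, ha⟩ : E) ⟨b, hb⟩)
    have hcB : ∀ a ∈ B, ∀ b ∈ B, Commute a b := fun a ha b hb => congrArg Subtype.val (mul_comm' (⟨a, ha⟩ : B) ⟨b, hb⟩)
    have hEB : E ⊓ C = E ⊓ B := le_antisymm (fun x hx => ⟨hx.1, hΩ x hx.2 (hEel.2 x hx.1)⟩) (inf_le_inf_left _ hBC)
    have hmul : ∀ e b : R, ∀ e' : R, ⁅e * e', b⁆ = e * ⁅e', b⁆ * e⁻¹ * ⁅e, b⁆ := fun e b e' => by
      simp only [commutatorElement_def]; group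
    -- a normal subgroup of order `p²` inside `B`
    obtain ⟨⟨z, hzBc⟩, hz⟩ : ∃ w : ↥(B ⊓ Subgroup.center R : Subgroup R), orderOf w = p := by
      refine exists_prime_orderOf_dvd_card' p ?_
      have hB0 : B ≠ ⊥ := fun h => by
        rw [h, Subgroup.card_bot] at hBc
        exact (Nat.one_lt_pow three_ne_zero hp.out.one_lt).ne hBc
      have : Nontrivial ↥(B ⊓ Subgroup.center R : Subgroup R) :=
        (Subgroup.nontrivial_iff_ne_bot _).mpr (PStep.normal_inf_center_ne_bot hR hBn hB0)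
      obtain ⟨k, hk, hck⟩ := (IsPGroup.nontrivial_iff_card (hR.to_subgroup _)).mp this
      rw [hck]; exact dvd_pow_self p hk.ne'
    rw [Subgroup.orderOf_mk] at hz
    obtain ⟨hzB, hzc⟩ := hzBc
    obtain ⟨A, hAB, hAn, hAel, hAc⟩ := CfsgLib.PLocal.exists_normal_prime_sq hR (E := B) hBel.2
      (by rw [hBc]; nth_rewrite 1 [← pow_one p]; exact Nat.pow_lt_pow_right hp.out.one_lt (by norm_num)) hzB hz hzc
    haveI := hAn
    obtain ⟨-, hAidx, hAcen⟩ := normal_sq hR hAn hAel.1 hAc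
    obtain ⟨b₀, hb₀, hb₀A⟩ : ∃ b ∈ B, b ∉ A := by
      by_contra h'
      push Not at h'
      have := Subgroup.card_le_of_le h'
      rw [hAc, hBc] at this
      exact absurd this (not_le.mpr (Nat.pow_lt_pow_right hp.out.one_lt (by norm_num)))
    -- `B / A` is central
    have hBA : ∀ e : R, ∀ b ∈ B, ⁅e, b⁆ ∈ A := by
      intro e b hb
      let π := QuotientGroup.mk' A
      have hBb : Nat.card (B.map π) = p := by
        have h1 := Subgroup.relIndex_ker (K := B) π
        rw [QuotientGroup.ker_mk'] at h1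
        have h2 := Subgroup.relIndex_mul_relIndex ⊥ A B bot_le hAB
        rw [Subgroup.relIndex_bot_left, Subgroup.relIndex_bot_left, hAc, h1, hBc] at h2
        exact Nat.eq_of_mul_eq_mul_left (pow_pos hp.out.pos 2) (h2.trans (pow_succ p 2))
      rw [← QuotientGroup.eq_one_iff, ← QuotientGroup.mk'_apply, map_commutatorElement, commutatorElement_eq_one_iff_mul_comm]
      exact Subgroup.mem_center_iff.mp (le_center_of_card_prime (hR.to_quotient A)
        (hBn.map π (QuotientGroup.mk'_surjective A)) hBb (Subgroup.mem_map_of_mem π hb)) (π e)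
    have hBgen : ∀ g : R, (∀ a ∈ A, Commute g a) → Commute g b₀ → g ∈ C := by
      intro g hgA hgb
      have h : A ⊔ Subgroup.zpowers b₀ = B := by
        refine Subgroup.eq_of_le_of_card_ge (sup_le hAB (Subgroup.zpowers_le.mpr hb₀)) ?_
        obtain ⟨k, hk⟩ := IsPGroup.iff_card.mp (hR.to_subgroup (A ⊔ Subgroup.zpowers b₀))
        have h1 : Nat.card A < Nat.card (A ⊔ Subgroup.zpowers b₀ : Subgroup R) :=
          lt_of_le_of_ne (Subgroup.card_le_of_le le_sup_left) fun e => hb₀A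
            ((Subgroup.eq_of_le_of_card_ge le_sup_left e.ge).symm ▸ Subgroup.mem_sup_right (Subgroup.mem_zpowers b₀))
        rw [hAc, hk] at h1
        rw [hBc, hk]
        exact Nat.pow_le_pow_right hp.out.pos ((Nat.pow_lt_pow_iff_right hp.out.one_lt).mp h1)
      have hle : B ≤ Subgroup.centralizer ({g} : Set R) := h ▸ sup_le
        (fun a ha => Subgroup.mem_centralizer_singleton_iff.mpr (hgA a ha).eq.symm)
        (Subgroup.zpowers_le.mpr (Subgroup.mem_centralizer_singleton_iff.mpr hgb.eq.symm))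
      exact Subgroup.mem_centralizer_iff.mpr fun b hb => Subgroup.mem_centralizer_singleton_iff.mp (hle hb)
    -- `E ∩ B` has order at least `p²`
    have hge : p ^ 2 ≤ Nat.card (E ⊓ B : Subgroup R) := by
      set CA := Subgroup.centralizer (A : Set R) with hCA
      set E₁ := E ⊓ CA with hE₁
      have hA' : ∀ e ∈ E₁, ∀ a ∈ A, Commute e a := fun e he a ha =>
        (Subgroup.mem_centralizer_iff.mp he.2 a ha).symm
      let φ : E₁ →* A := MonoidHom.mk' (fun e => ⟨⁅(e : R), b₀⁆, hBA _ _ hb₀⟩) fun e e' => Subtype.ext (by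
        show ⁅(e : R) * e', b₀⁆ = ⁅(e : R), b₀⁆ * ⁅(e' : R), b₀⁆
        rw [hmul, (hA' e e.2 _ (hBA e' _ hb₀)).eq, mul_inv_cancel_right]
        exact hcB _ (hAB (hBA _ _ hb₀)) _ (hAB (hBA _ _ hb₀)))
      have hker : Nat.card φ.ker ≤ Nat.card (E ⊓ B : Subgroup R) := by
        rw [← Subgroup.card_map_of_injective (E₁).subtype_injective]
        refine Subgroup.card_le_of_le ?_
        rintro _ ⟨e, he, rfl⟩
        have h1 : ⁅(e : R), b₀⁆ = 1 := congrArg Subtype.val (MonoidHom.mem_ker.mp he)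
        exact hEB.le ⟨e.2.1, hBgen _ (hA' e e.2) (commutatorElement_eq_one_iff_commute.mp h1)⟩
      have hcard := φ.ker.card_mul_index
      rw [Subgroup.index_ker] at hcard
      by_cases hE1 : E ≤ CA
      · have h4 : Nat.card E₁ = p ^ 4 := by rw [hE₁, inf_eq_left.mpr hE1, hEc]
        have h2 : Nat.card φ.range ≤ p ^ 2 := hAc ▸ Subgroup.card_le_card_group _
        have h3 := Nat.mul_le_mul hker h2
        rw [hcard, h4, show p ^ 4 = p ^ 2 * p ^ 2 by ring] at h3
        exact Nat.le_of_mul_le_mul_right h3 (pow_pos hp.out.pos 2)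
      · obtain ⟨e, he, heA⟩ := SetLike.not_le_iff_exists.mp hE1
        obtain ⟨a, ha, hea⟩ : ∃ a ∈ A, ¬ Commute e a := by
          by_contra h'
          push Not at h'
          exact heA (Subgroup.mem_centralizer_iff.mpr fun a ha => (h' a ha).eq.symm)
        set K := A ⊓ Subgroup.centralizer ({e} : Set R)
        have hKp : Nat.card K ≤ p := by
          obtain ⟨k, hk⟩ := IsPGroup.iff_card.mp (hR.to_subgroup K)
          have h1 : Nat.card K < p ^ 2 := hAc ▸ lt_of_le_of_ne (Subgroup.card_le_of_le inf_le_left) fun e' => hea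
            (Subgroup.mem_centralizer_singleton_iff.mp ((Subgroup.eq_of_le_of_card_ge inf_le_left e'.ge).ge ha).2).symm
          rw [hk] at h1 ⊢
          nth_rewrite 2 [← pow_one p]
          exact Nat.pow_le_pow_right hp.out.pos (by have := (Nat.pow_lt_pow_iff_right hp.out.one_lt).mp h1; omega)
        have hrange : Nat.card φ.range ≤ p := by
          rw [← Subgroup.card_map_of_injective A.subtype_injective]
          refine (Subgroup.card_le_of_le ?_).trans hKp
          rintro _ ⟨_, ⟨e', rfl⟩, rfl⟩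
          refine ⟨(φ e').2, Subgroup.mem_centralizer_singleton_iff.mpr ?_⟩
          show ⁅(e' : R), b₀⁆ * e = e * ⁅(e' : R), b₀⁆
          have h1 := hmul e b₀ e'
          rw [(hcE e he e' e'.2.1).eq, hmul e' b₀ e, (hA' e' e'.2 _ (hBA e _ hb₀)).eq, mul_inv_cancel_right,
            (hcB _ (hAB (hBA e _ hb₀)) _ (hAB (hBA e' _ hb₀))).eq] at h1
          calc ⁅(e' : R), b₀⁆ * e = (e * ⁅(e' : R), b₀⁆ * e⁻¹) * e := by rw [← mul_right_cancel h1]
            _ = e * ⁅(e' : R), b₀⁆ := by group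
        have h2 : p ^ 3 ≤ Nat.card E₁ := by
          have h3 := Subgroup.relIndex_mul_relIndex ⊥ E₁ E bot_le inf_le_left
          rw [Subgroup.relIndex_bot_left, Subgroup.relIndex_bot_left, hEc, hE₁, inf_comm, Subgroup.inf_relIndex_right] at h3
          have h4 : CA.relIndex E ≤ p := (Nat.le_of_dvd (Nat.pos_of_ne_zero Subgroup.index_ne_zero_of_finite)
            (Subgroup.relIndex_dvd_index_of_normal CA E)).trans hAidx
          have h5 := Nat.mul_le_mul_left (Nat.card (CA ⊓ E : Subgroup R)) h4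
          rw [h3, pow_succ p 3] at h5
          rw [hE₁, inf_comm]
          exact Nat.le_of_mul_le_mul_right h5 hp.out.pos
        have h3 := (h2.trans hcard.ge).trans (Nat.mul_le_mul hker hrange)
        rw [pow_succ p 2] at h3
        exact Nat.le_of_mul_le_mul_right h3 hp.out.pos
    have hnot : ¬ B ≤ E := fun hBE => by
      have hEC : E ≤ C := fun e he => Subgroup.mem_centralizer_iff.mpr fun b hb => (hcE b (hBE hb) e he).eq
      have := Subgroup.card_le_of_le (le_inf le_rfl hEC |>.trans (hEB.le.trans inf_le_right) : E ≤ B)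
      rw [hBc, hEc] at this
      exact absurd this (not_le.mpr (Nat.pow_lt_pow_right hp.out.one_lt (by norm_num)))
    have hF : Nat.card (E ⊓ B : Subgroup R) = p ^ 2 := by
      refine le_antisymm ?_ hge
      obtain ⟨k, hk⟩ := IsPGroup.iff_card.mp (hR.to_subgroup (E ⊓ B : Subgroup R))
      have h1 : Nat.card (E ⊓ B : Subgroup R) < p ^ 3 := hBc ▸ lt_of_le_of_ne (Subgroup.card_le_of_le inf_le_right)
        fun e => hnot ((Subgroup.eq_of_le_of_card_ge inf_le_right e.ge).ge.trans inf_le_left)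
      rw [hk] at h1 ⊢
      exact Nat.pow_le_pow_right hp.out.pos (by have := (Nat.pow_lt_pow_iff_right hp.out.one_lt).mp h1; omega)
    refine ⟨hF, fun b hb hbE => ?_⟩
    set F := E ⊓ B with hFdef
    have hFb : F ⊔ Subgroup.zpowers b = B := by
      refine Subgroup.eq_of_le_of_card_ge (sup_le inf_le_right (Subgroup.zpowers_le.mpr hb)) ?_
      obtain ⟨k, hk⟩ := IsPGroup.iff_card.mp (hR.to_subgroup (F ⊔ Subgroup.zpowers b))
      have h1 : Nat.card F < Nat.card (F ⊔ Subgroup.zpowers b : Subgroup R) :=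
        lt_of_le_of_ne (Subgroup.card_le_of_le le_sup_left) fun e => hbE
          ((Subgroup.eq_of_le_of_card_ge le_sup_left e.ge).symm ▸ Subgroup.mem_sup_right (Subgroup.mem_zpowers b) : b ∈ F).1
      rw [hF, hk] at h1
      rw [hBc, hk]
      exact Nat.pow_le_pow_right hp.out.pos ((Nat.pow_lt_pow_iff_right hp.out.one_lt).mp h1)
    have hin : ∀ e ∈ E, ⁅e, b⁆ ∈ F := by
      intro e he
      set L := E ⊔ B with hL
      haveI : (F.subgroupOf L).Normal := Subgroup.normal_subgroupOf_of_le_normalizer (sup_le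
        (fun x hx => Subgroup.mem_normalizer_fintype fun f hf => by
          rw [(hcE x hx f hf.1).eq, mul_inv_cancel_right]; exact hf)
        (fun x hx => Subgroup.mem_normalizer_fintype fun f hf => by
          rw [(hcB x hx f hf.2).eq, mul_inv_cancel_right]; exact hf))
      let π := QuotientGroup.mk' (F.subgroupOf L)
      haveI : ((B.subgroupOf L).map π).Normal :=
        (hBn.subgroupOf L).map π (QuotientGroup.mk'_surjective _)
      have hc : Nat.card ((B.subgroupOf L).map π) = p := by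
        have h1 := Subgroup.relIndex_ker (K := B.subgroupOf L) π
        rw [QuotientGroup.ker_mk', Subgroup.relIndex_subgroupOf le_sup_right] at h1
        have h2 := Subgroup.relIndex_mul_relIndex ⊥ F B bot_le inf_le_right
        rw [Subgroup.relIndex_bot_left, Subgroup.relIndex_bot_left, hF, h1, hBc] at h2
        exact Nat.eq_of_mul_eq_mul_left (pow_pos hp.out.pos 2) (h2.trans (pow_succ p 2))
      have hmem : (⟨b, Subgroup.mem_sup_right hb⟩ : L) ∈ B.subgroupOf L := hb
      have h := Subgroup.mem_center_iff.mp (le_center_of_card_prime ((hR.to_subgroup L).to_quotient _) inferInstance hc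
        (Subgroup.mem_map_of_mem π hmem)) (π ⟨e, Subgroup.mem_sup_left he⟩)
      rw [← commutatorElement_eq_one_iff_mul_comm, ← map_commutatorElement] at h
      exact (QuotientGroup.eq_one_iff (N := F.subgroupOf L) ⁅(⟨e, Subgroup.mem_sup_left he⟩ : L), ⟨b, Subgroup.mem_sup_right hb⟩⁆).mp h
    refine ⟨hin, fun f hf => ?_⟩
    let ψ : E →* F := MonoidHom.mk' (fun e => ⟨⁅(e : R), b⁆, hin e e.2⟩) fun e e' => Subtype.ext (by
      show ⁅(e : R) * e', b⁆ = ⁅(e : R), b⁆ * ⁅(e' : R), b⁆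
      rw [hmul, (hcE e e.2 _ (hin e' e'.2).1).eq, mul_inv_cancel_right]
      exact hcE _ (hin e' e'.2).1 _ (hin e e.2).1)
    have hker : Nat.card ψ.ker ≤ p ^ 2 := by
      rw [← Subgroup.card_map_of_injective E.subtype_injective, ← hF]
      refine Subgroup.card_le_of_le ?_
      rintro _ ⟨e, he, rfl⟩
      have h1 : Commute (e : R) b := commutatorElement_eq_one_iff_commute.mp (congrArg Subtype.val (MonoidHom.mem_ker.mp he))
      have hle : B ≤ Subgroup.centralizer ({(e : R)} : Set R) := hFb ▸ sup_le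
        (fun a ha => Subgroup.mem_centralizer_singleton_iff.mpr (hcE a ha.1 e e.2).eq)
        (Subgroup.zpowers_le.mpr (Subgroup.mem_centralizer_singleton_iff.mpr h1.eq.symm))
      exact hEB.le ⟨e.2, Subgroup.mem_centralizer_iff.mpr fun b hb => Subgroup.mem_centralizer_singleton_iff.mp (hle hb)⟩
    have hcard := ψ.ker.card_mul_index
    rw [Subgroup.index_ker, hEc] at hcard
    have hsur : ψ.range = ⊤ := by
      refine Subgroup.eq_top_of_le_card _ ?_
      rw [hF]
      have h1 := hcard.ge.trans (Nat.mul_le_mul_right _ hker)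
      rw [show p ^ 4 = p ^ 2 * p ^ 2 by ring] at h1
      exact Nat.le_of_mul_le_mul_left h1 (pow_pos hp.out.pos 2)
    obtain ⟨e, he⟩ : (⟨f, hf⟩ : F) ∈ ψ.range := hsur ▸ Subgroup.mem_top _
    exact ⟨e, e.2, congrArg Subtype.val he⟩
  obtain ⟨hF, hFacts⟩ := facts E hEel hEc
  refine hbad ⟨E, ⟨fun x hx g => ?_⟩, hEel, hEc⟩
  by_contra hgx
  set E₂ := E.map (MulAut.conj g).toMonoidHom with hE₂
  have hE₂el : IsElementaryAbelian p E₂ := ⟨by haveI := hEel.1; infer_instance, by
    rintro _ ⟨e, he, rfl⟩; rw [← map_pow, hEel.2 e he, map_one]⟩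
  have hE₂c : Nat.card E₂ = p ^ 4 := by rw [hE₂, Subgroup.card_map_of_injective (MulAut.conj g).injective, hEc]
  have hME₂ : M ≤ Subgroup.normalizer (E₂ : Set R) := CfsgLib.GroupB.Coprime.le_normalizer_of_conj_mem fun m hm e he => by
    obtain ⟨e', he', rfl⟩ := he
    refine ⟨(g⁻¹ * m * g) * e' * (g⁻¹ * m * g)⁻¹,
      (Subgroup.mem_normalizer_iff.mp (hME (by simpa using hMn.conj_mem m hm g⁻¹)) e').mp he', ?_⟩
    show g * _ * g⁻¹ = m * (g * e' * g⁻¹) * m⁻¹
    group
  have hE₂M : E₂ ≤ M := by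
    rintro _ ⟨e, he, rfl⟩
    exact hMn.conj_mem e (hEM' he) g
  obtain ⟨hF₂, hFacts₂⟩ := facts E₂ hE₂el hE₂c
  haveI := hEel.1
  haveI := hE₂el.1
  haveI := hBel.1
  have hcE : ∀ a ∈ E, ∀ b ∈ E, Commute a b := fun a ha b hb => congrArg Subtype.val (mul_comm' (⟨a, ha⟩ : E) ⟨b, hb⟩)
  have hcE₂ : ∀ a ∈ E₂, ∀ b ∈ E₂, Commute a b := fun a ha b hb => congrArg Subtype.val (mul_comm' (⟨a, ha⟩ : E₂) ⟨b, hb⟩)
  have hcB : ∀ a ∈ B, ∀ b ∈ B, Commute a b := fun a ha b hb => congrArg Subtype.val (mul_comm' (⟨a, ha⟩ : B) ⟨b, hb⟩)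
  have hcross : ∀ e ∈ E, ∀ e' ∈ E₂, ⁅e', e⁆ ∈ E ⊓ E₂ := fun e he e' he' => ⟨by
      rw [commutatorElement_def]
      exact E.mul_mem ((Subgroup.mem_normalizer_iff.mp (hME (hE₂M he')) e).mp he) (E.inv_mem he), by
      rw [commutatorElement_def, show e' * e * e'⁻¹ * e⁻¹ = e' * (e * e'⁻¹ * e⁻¹) by group]
      exact E₂.mul_mem he' ((Subgroup.mem_normalizer_iff.mp (hME₂ (hEM' he)) e'⁻¹).mp (E₂.inv_mem he'))⟩
  -- the two intersections with `B` agree
  have hFF : E ⊓ B = E₂ ⊓ B := by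
    by_contra hne
    obtain ⟨y, hy, hyE⟩ : ∃ y ∈ E₂ ⊓ B, y ∉ E := by
      by_contra h'
      push Not at h'
      exact hne (Subgroup.eq_of_le_of_card_ge (fun y hy => ⟨h' y hy, hy.2⟩ : E₂ ⊓ B ≤ E ⊓ B) (by rw [hF, hF₂])).symm
    have hle : E ⊓ B ≤ E₂ ⊓ B := fun f hf => by
      obtain ⟨e, he, hef⟩ := (hFacts y hy.2 hyE).2 f hf
      refine ⟨?_, hf.2⟩
      by_contra hfE₂
      -- every element of `E₂` fixes `e y e⁻¹`
      obtain ⟨hin₂, hsur₂⟩ := hFacts₂ f hf.2 hfE₂
      obtain ⟨q, hq, hq1⟩ : ∃ q ∈ E₂ ⊓ B, q ≠ 1 := (Subgroup.bot_or_exists_ne_one _).resolve_left fun h => by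
        rw [h, Subgroup.card_bot] at hF₂
        exact (Nat.one_lt_pow two_ne_zero hp.out.one_lt).ne hF₂
      obtain ⟨e', he', heq⟩ := hsur₂ q hq
      refine hq1 ?_
      rw [← heq, commutatorElement_eq_one_iff_commute]
      have h1 := hcross e he e' he'
      have hyc : Commute e' y := hcE₂ e' he' y hy.1
      -- conjugation by `e'` fixes `f * y`
      have hcy : Commute ⁅e', e⁆ y := hcE₂ _ h1.2 y hy.1
      have hfy : f * y = e * y * e⁻¹ := by rw [← hef, commutatorElement_def]; group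
      have h2 : Commute e' (f * y) := by
        rw [hfy]
        refine mul_inv_eq_iff_eq_mul.mp ?_
        calc e' * (e * y * e⁻¹) * e'⁻¹ = ⁅e', e⁆ * (e * (e' * y * e'⁻¹) * e⁻¹) * ⁅e', e⁆⁻¹ := by
              simp only [commutatorElement_def]; group
          _ = ⁅e', e⁆ * e * y * e⁻¹ * ⁅e', e⁆⁻¹ := by rw [hyc.eq, mul_inv_cancel_right]; group
          _ = e * (⁅e', e⁆ * y * ⁅e', e⁆⁻¹) * e⁻¹ := by
            have h3 := (hcE _ h1.1 e he).eq
            have h4 : e⁻¹ * ⁅e', e⁆⁻¹ = ⁅e', e⁆⁻¹ * e⁻¹ := by rw [← mul_inv_rev, h3, mul_inv_rev]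
            rw [h3, mul_assoc _ e⁻¹, h4]; group
          _ = e * y * e⁻¹ := by rw [hcy.eq, mul_inv_cancel_right]
      simpa using h2.mul_right hyc.inv_right
    exact hne (Subgroup.eq_of_le_of_card_ge hle (by rw [hF, hF₂]))
  -- `E₂` lies in `E B`
  obtain ⟨b₀, hb₀, hb₀E⟩ : ∃ b ∈ B, b ∉ E := by
    by_contra h'
    push Not at h'
    have := Subgroup.card_le_of_le (le_inf h' le_rfl : B ≤ E ⊓ B)
    rw [hF, hBc] at this
    exact absurd this (not_le.mpr (Nat.pow_lt_pow_right hp.out.one_lt (by norm_num)))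
  have hb₀E₂ : b₀ ∉ E₂ := fun h => hb₀E (hFF.ge ⟨h, hb₀⟩).1
  have hgenB : E ⊓ B ⊔ Subgroup.zpowers b₀ = B := by
    refine Subgroup.eq_of_le_of_card_ge (sup_le inf_le_right (Subgroup.zpowers_le.mpr hb₀)) ?_
    obtain ⟨k, hk⟩ := IsPGroup.iff_card.mp (hR.to_subgroup (E ⊓ B ⊔ Subgroup.zpowers b₀))
    have h1 : Nat.card (E ⊓ B : Subgroup R) < Nat.card (E ⊓ B ⊔ Subgroup.zpowers b₀ : Subgroup R) :=
      lt_of_le_of_ne (Subgroup.card_le_of_le le_sup_left) fun e => hb₀E
        ((Subgroup.eq_of_le_of_card_ge le_sup_left e.ge).symm ▸ Subgroup.mem_sup_right (Subgroup.mem_zpowers b₀) : b₀ ∈ E ⊓ B).1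
    rw [hF, hk] at h1
    rw [hBc, hk]
    exact Nat.pow_le_pow_right hp.out.pos ((Nat.pow_lt_pow_iff_right hp.out.one_lt).mp h1)
  have hEW : ∀ e' ∈ E₂, ∃ e ∈ E, ∃ c ∈ B, e * c = e' := by
    intro e' he'
    obtain ⟨e, he, heq⟩ := (hFacts b₀ hb₀ hb₀E).2 _ (hFF.ge ((hFacts₂ b₀ hb₀ hb₀E₂).1 e' he'))
    refine ⟨e, he, e⁻¹ * e', hΩ _ ?_ ?_, by group⟩
    · have hb : Commute (e⁻¹ * e') b₀ := by
        have h0 : e' * b₀ * e'⁻¹ = e * b₀ * e⁻¹ := by
          simp only [commutatorElement_def] at heq; exact (mul_right_cancel heq).symm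
        refine mul_inv_eq_iff_eq_mul.mp ?_
        calc e⁻¹ * e' * b₀ * (e⁻¹ * e')⁻¹ = e⁻¹ * (e' * b₀ * e'⁻¹) * e := by group
          _ = b₀ := by rw [h0]; group
      have hle : B ≤ Subgroup.centralizer ({e⁻¹ * e'} : Set R) := hgenB ▸ sup_le
        (fun a ha => Subgroup.mem_centralizer_singleton_iff.mpr
          ((hcE a ha.1 e⁻¹ (E.inv_mem he)).mul_right (hcE₂ a (hFF.le ha).1 e' he')).eq)
        (Subgroup.zpowers_le.mpr (Subgroup.mem_centralizer_singleton_iff.mpr hb.eq.symm))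
      exact Subgroup.mem_centralizer_iff.mpr fun b hb => Subgroup.mem_centralizer_singleton_iff.mp (hle hb)
    · have h1 := hcross _ (E.inv_mem he) e' he'
      rw [CfsgLib.PLocal.mul_pow_prime hp.out hp2 (hcE _ h1.1 _ (E.inv_mem he)) (hcE₂ _ h1.2 e' he') (hEel.2 _ h1.1),
        hEel.2 _ (E.inv_mem he), hE₂el.2 e' he', one_mul]
  have hne : g * x * g⁻¹ ∈ E₂ := ⟨x, hx, rfl⟩
  obtain ⟨e, he, c, hc, hec⟩ := hEW _ hne
  have hcF : c ∉ E := fun h => hgx (hec ▸ E.mul_mem he h)
  -- a common element outside `B`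
  obtain ⟨d, hd, hdB⟩ : ∃ d ∈ E ⊓ E₂, d ∉ B := by
    by_contra h'
    push Not at h'
    have hle : E₂ ≤ E ⊔ B := fun e' he' => by
      obtain ⟨e, he, c, hc, rfl⟩ := hEW e' he'
      exact Subgroup.mul_mem _ (Subgroup.mem_sup_left he) (Subgroup.mem_sup_right hc)
    have hnorm : E ≤ Subgroup.normalizer (B : Set R) := by rw [Subgroup.normalizer_eq_top (H := B)]; exact le_top
    have hsup : Nat.card (E ⊔ B : Subgroup R) = p ^ 5 := by
      rw [sup_comm, ← Subgroup.relIndex_bot_left (B ⊔ E), ← Subgroup.relIndex_mul_relIndex _ _ _ bot_le le_sup_left,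
        Subgroup.relIndex_bot_left, CfsgLib.GroupB.Coprime.relIndex_sup_of_le_normalizer hnorm, hBc]
      have h1 := Subgroup.relIndex_mul_relIndex ⊥ (E ⊓ B) E bot_le inf_le_left
      rw [Subgroup.relIndex_bot_left, Subgroup.relIndex_bot_left, hF, hEc, inf_comm, Subgroup.inf_relIndex_right,
        show p ^ 4 = p ^ 2 * p ^ 2 by ring] at h1
      rw [Nat.eq_of_mul_eq_mul_left (pow_pos hp.out.pos 2) h1]; ring
    have h2 := Subgroup.relIndex_le_of_le_right (H := E) hle Subgroup.index_ne_zero_of_finite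
    have h3 := Subgroup.relIndex_mul_relIndex ⊥ E (E ⊔ B) bot_le le_sup_left
    rw [Subgroup.relIndex_bot_left, Subgroup.relIndex_bot_left, hEc, hsup, pow_succ p 4] at h3
    rw [Nat.eq_of_mul_eq_mul_left (pow_pos hp.out.pos 4) h3] at h2
    have h4 := Subgroup.relIndex_mul_relIndex ⊥ (E ⊓ E₂) E₂ bot_le inf_le_right
    rw [Subgroup.relIndex_bot_left, Subgroup.relIndex_bot_left, hE₂c, Subgroup.inf_relIndex_right] at h4
    have h5 : Nat.card (E ⊓ E₂ : Subgroup R) ≤ p ^ 2 :=
      hF ▸ Subgroup.card_le_of_le (fun d hd => ⟨hd.1, h' d hd⟩)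
    have h6 := h4.ge.trans (Nat.mul_le_mul h5 h2)
    rw [← pow_succ] at h6
    exact absurd h6 (not_le.mpr (Nat.pow_lt_pow_right hp.out.one_lt (by norm_num)))
  refine hdB (hΩ d ?_ (hEel.2 d hd.1))
  have hdc : Commute d c := by
    have h1 : Commute d (g * x * g⁻¹) := hcE₂ d hd.2 _ hne
    rw [← hec] at h1
    simpa using (hcE d hd.1 e⁻¹ (E.inv_mem he)).mul_right h1
  have hgen : E ⊓ B ⊔ Subgroup.zpowers c = B := by
    refine Subgroup.eq_of_le_of_card_ge (sup_le inf_le_right (Subgroup.zpowers_le.mpr hc)) ?_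
    obtain ⟨k, hk⟩ := IsPGroup.iff_card.mp (hR.to_subgroup (E ⊓ B ⊔ Subgroup.zpowers c))
    have h1 : Nat.card (E ⊓ B : Subgroup R) < Nat.card (E ⊓ B ⊔ Subgroup.zpowers c : Subgroup R) :=
      lt_of_le_of_ne (Subgroup.card_le_of_le le_sup_left) fun e => hcF
        ((Subgroup.eq_of_le_of_card_ge le_sup_left e.ge).symm ▸ Subgroup.mem_sup_right (Subgroup.mem_zpowers c) : c ∈ E ⊓ B).1
    rw [hF, hk] at h1
    rw [hBc, hk]
    exact Nat.pow_le_pow_right hp.out.pos ((Nat.pow_lt_pow_iff_right hp.out.one_lt).mp h1)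
  have hle : B ≤ Subgroup.centralizer ({d} : Set R) := hgen ▸ sup_le
    (fun a ha => Subgroup.mem_centralizer_singleton_iff.mpr (hcE a ha.1 d hd.1).eq)
    (Subgroup.zpowers_le.mpr (Subgroup.mem_centralizer_singleton_iff.mpr hdc.eq.symm))
  exact Subgroup.mem_centralizer_iff.mpr fun b hb => Subgroup.mem_centralizer_singleton_iff.mp (hle hb)

end CfsgLib.GroupB.RankTwoOdd
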