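import Mathlib.GroupTheory.SpecificGroups.Alternating.KleinFour
import Mathlib.GroupTheory.Solvable
import Mathlib.GroupTheory.NoncommCoprod
import Mathlib.GroupTheory.Perm.ViaEmbedding
import Mathlib.GroupTheory.SemidirectProduct
import Mathlib.Algebra.Group.TransferInstance
import Cfsg.Prelude.Def_Solvable

/-! Small symmetric groups, Frobenius semidirect products, shrinking to `Type`. -/

set_option autoImplicit false

open scoped Pointwise

namespace CfsgLib.GroupB.Small

universe u v

theorem isSolvable_alternatingGroup_four : Group.IsSolvable ↥(alternatingGroup (Fin 4)) := by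
  have h4 : Nat.card (Fin 4) = 4 := Nat.card_fin 4
  haveI := alternatingGroup.normal_kleinFour h4
  have hK := alternatingGroup.kleinFour_eq_commutator h4
  haveI := alternatingGroup.kleinFour_isKleinFour h4
  refine ⟨2, ?_⟩
  rw [derivedSeries_succ, derivedSeries_one, ← hK, eq_bot_iff, Subgroup.commutator_le]
  intro a ha b hb
  rw [Subgroup.mem_bot, commutatorElement_eq_one_iff_mul_comm]
  exact congrArg Subtype.val
    ((IsKleinFour.isMulCommutative (G := ↥(alternatingGroup.kleinFour (Fin 4)))).is_comm.comm ⟨a, ha⟩ ⟨b, hb⟩)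

theorem isSolvable_perm_four : Group.IsSolvable (Equiv.Perm (Fin 4)) := by
  haveI := isSolvable_alternatingGroup_four
  exact Group.isSolvable_of_ker_le_range (alternatingGroup (Fin 4)).subtype
    (Equiv.Perm.sign : Equiv.Perm (Fin 4) →* ℤˣ)
    (by rw [Subgroup.range_subtype]; exact le_of_eq rfl)

theorem isSolvable_perm_of_card_le_four {α : Type u} [Finite α] (h : Nat.card α ≤ 4) :
    Group.IsSolvable (Equiv.Perm α) := by
  classical
  haveI := Fintype.ofFinite α
  haveI := isSolvable_perm_four
  obtain ⟨e⟩ : Nonempty (α ↪ Fin 4) :=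
    Function.Embedding.nonempty_of_card_le (by rwa [Fintype.card_fin, ← Nat.card_eq_fintype_card])
  exact Group.isSolvable_of_isSolvable_injective (f := Equiv.Perm.viaEmbeddingHom e)
    (Equiv.Perm.viaEmbeddingHom_injective e)

/-- Permutations moving at most four points generate a solvable group. -/
theorem isSolvable_closure_of_moved {α : Type u} [DecidableEq α] [Fintype α] {S : Set (Equiv.Perm α)}
    (T : Finset α) (hT : T.card ≤ 4) (h : ∀ s ∈ S, s.support ⊆ T) :
    Group.IsSolvable ↥(Subgroup.closure S) := by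
  have hle : Subgroup.closure S ≤ (Equiv.Perm.ofSubtype : Equiv.Perm {x // x ∈ T} →* Equiv.Perm α).range := by
    rw [Subgroup.closure_le]
    intro s hs
    have hiff : ∀ x, s x ≠ x → x ∈ T := fun x hx => h s hs (Equiv.Perm.mem_support.mpr hx)
    refine ⟨s.subtypePerm (p := fun x => x ∈ T) fun x => ?_, Equiv.Perm.ofSubtype_subtypePerm _ hiff⟩
    by_cases hx : s x = x
    · rw [hx]
    · exact iff_of_true (hiff _ fun h' => hx (s.injective h')) (hiff x hx)
  haveI := isSolvable_perm_of_card_le_four (α := {x // x ∈ T}) (by simpa using hT)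
  haveI : Group.IsSolvable
      ↥(Equiv.Perm.ofSubtype : Equiv.Perm {x // x ∈ T} →* Equiv.Perm α).range :=
    Group.isSolvable_of_surjective (MonoidHom.rangeRestrict_surjective _)
  exact Group.isSolvable_of_isSolvable_injective (Subgroup.inclusion_injective hle)

theorem isSolvable_sup_of_commute {G : Type u} [Group G] (A B : Subgroup G) [Group.IsSolvable ↥A]
    [Group.IsSolvable ↥B] (h : ∀ a ∈ A, ∀ b ∈ B, Commute a b) : Group.IsSolvable ↥(A ⊔ B) := by
  have hr : (MonoidHom.noncommCoprod A.subtype B.subtype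
      (fun a b => h _ a.2 _ b.2 : ∀ a b, Commute (A.subtype a) (B.subtype b))).range = A ⊔ B :=
    (MonoidHom.noncommCoprod_range _ _ _).trans (by simp)
  rw [← hr]
  exact Group.isSolvable_of_surjective (MonoidHom.rangeRestrict_surjective _)

/-- Transport a finite Frobenius complement to a group in `Type`. -/
theorem exists_type_complement {L : Type u} [Group L] [Finite L] {A : Type v} [Group A] (C : Subgroup L)
    (hC : Cfsg.IsFrobeniusComplement C) (e : A ≃* C) :
    ∃ (L' : Type) (_ : Group L') (_ : Finite L') (H : Subgroup L'),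
      Cfsg.IsFrobeniusComplement H ∧ Nonempty (A ≃* H) := by
  let φ : L →* Equiv.Perm (Fin (Nat.card L)) :=
    ((Finite.equivFin L).permCongrHom).toMonoidHom.comp (MulAction.toPermHom L L)
  have hφ : Function.Injective φ := by
    intro a b h
    exact MulAction.toPerm_injective (α := L) (β := L)
      (((Finite.equivFin L).permCongrHom).injective h)
  let g : ↥φ.range ≃* L := (MonoidHom.ofInjective hφ).symm
  refine ⟨↥φ.range, inferInstance, inferInstance, C.map g.symm.toMonoidHom, ⟨?_, ?_, ?_⟩,
    ⟨e.trans (g.symm.subgroupMap C)⟩⟩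
  · rw [ne_eq, Subgroup.map_eq_bot_iff_of_injective (f := g.symm.toMonoidHom) C g.symm.injective]
    exact hC.1
  · intro h
    apply hC.2.1
    rw [Subgroup.eq_top_iff']
    intro x
    obtain ⟨y, hy, hyx⟩ := (h.ge (Subgroup.mem_top (g.symm x)))
    exact g.symm.injective hyx ▸ hy
  · intro x hx
    rw [eq_bot_iff]
    rintro y ⟨⟨c, hc, rfl⟩, h2⟩
    obtain ⟨z, ⟨d, hd, rfl⟩, hz⟩ := h2
    have hgx : g x ∉ C := fun h => hx ⟨g x, h, g.symm_apply_apply x⟩
    have h3 : c ∈ C ⊓ (MulAut.conj (g x) • C) := by
      refine ⟨hc, d, hd, ?_⟩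
      have := congrArg g hz
      simpa [MulAut.smul_def] using this
    rw [hC.2.2 _ hgx, Subgroup.mem_bot] at h3
    simp [h3]

/-- A fixed-point-free action on a nontrivial group gives a Frobenius complement. -/
theorem isFrobeniusComplement_inr {V : Type u} [Group V] [Nontrivial V] {H : Type v} [Group H]
    [Nontrivial H] (φ : H →* MulAut V) (hfpf : ∀ h : H, h ≠ 1 → ∀ v : V, φ h v = v → v = 1) :
    Cfsg.IsFrobeniusComplement (SemidirectProduct.inr : H →* SemidirectProduct V H φ).range := by
  refine ⟨?_, ?_, ?_⟩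
  · rw [ne_eq, MonoidHom.range_eq_bot_iff]
    intro h
    obtain ⟨x, hx⟩ := exists_ne (1 : H)
    exact hx (SemidirectProduct.inr_injective (φ := φ) (by simp [h]))
  · intro h
    obtain ⟨v, hv⟩ := exists_ne (1 : V)
    obtain ⟨x, hx⟩ := h.ge (Subgroup.mem_top (SemidirectProduct.inl (φ := φ) v))
    have := congrArg SemidirectProduct.left hx
    simp at this
    exact hv this.symm
  · intro g hg
    rw [eq_bot_iff]
    rintro x ⟨⟨h, rfl⟩, h2⟩
    obtain ⟨y, ⟨k, rfl⟩, hy⟩ := h2
    have hy' : g * SemidirectProduct.inr k * g⁻¹ = SemidirectProduct.inr (φ := φ) h := hy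
    have h3 : g * SemidirectProduct.inr k = SemidirectProduct.inr (φ := φ) h * g :=
      mul_inv_eq_iff_eq_mul.mp hy'
    have h4 := congrArg SemidirectProduct.left h3
    simp at h4
    rw [Subgroup.mem_bot]
    by_contra hh
    have hh' : h ≠ 1 := fun e => hh (by rw [e, map_one])
    apply hg
    exact ⟨g.right, by ext <;> simp [hfpf h hh' g.left h4.symm]⟩

end CfsgLib.GroupB.Small
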