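import Mathlib

/-! Sylow numbers of quotients. -/

set_option autoImplicit false

namespace CfsgLib.GroupB.SylowQuot

universe u

variable {G : Type u} [Group G] [Finite G] {p : ℕ} [Fact p.Prime]

/-- `n_p(G ⧸ L) = |G : N(P)L|`. -/
theorem card_sylow_quotient_eq_index (P : Sylow p G) (L : Subgroup G) [L.Normal] :
    Nat.card (Sylow p (G ⧸ L)) = (Subgroup.normalizer ((P : Subgroup G) : Set G) ⊔ L).index := by
  classical
  set R := Subgroup.normalizer ((P : Subgroup G) : Set G) with hR
  have hPR : (P : Subgroup G) ≤ R := Subgroup.le_normalizer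
  set f := QuotientGroup.mk' L
  have hf : Function.Surjective f := QuotientGroup.mk'_surjective L
  rw [Sylow.card_eq_index_normalizer (P.mapSurjective hf), ← Subgroup.index_comap_of_surjective _ hf]
  congr 1
  refine le_antisymm (fun g hg => ?_) (sup_le (fun r hr => ?_) ?_)
  · have hmem : ∀ x : G, x ∈ ((P : Subgroup G).map f).comap f → x ∈ (P : Subgroup G) ⊔ L := by
      intro x hx
      rwa [Subgroup.comap_map_eq, QuotientGroup.ker_mk'] at hx
    have h1 : ((g • P : Sylow p G) : Subgroup G) ≤ (P : Subgroup G) ⊔ L := by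
      rintro _ ⟨x, hx, rfl⟩
      refine hmem _ ?_
      rw [Subgroup.mem_comap] at hg ⊢
      show f ((MulAut.conj g) x) ∈ _
      rw [MulAut.conj_apply, map_mul, map_mul, map_inv]
      exact ((Subgroup.mem_normalizer_iff.mp hg) (f x)).mp ⟨x, hx, rfl⟩
    obtain ⟨y, hy⟩ := MulAction.exists_smul_eq (((P : Subgroup G) ⊔ L : Subgroup G)) ((g • P).subtype h1) (P.subtype le_sup_left)
    rw [Sylow.smul_subtype] at hy
    have h2 : (y : G) * g ∈ R := by
      refine Sylow.smul_eq_iff_mem_normalizer.mp ?_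
      rw [mul_smul]
      exact Sylow.subtype_injective hy
    have h3 : (y : G) ∈ R ⊔ L := sup_le_sup_right hPR L y.2
    have := Subgroup.mul_mem _ (Subgroup.inv_mem _ h3) (Subgroup.mem_sup_left h2 (T := L))
    simpa using this
  · rw [Subgroup.mem_comap]
    show f r ∈ Subgroup.normalizer (((P : Subgroup G).map f : Subgroup (G ⧸ L)) : Set (G ⧸ L))
    rw [Subgroup.mem_normalizer_iff_map_conj_eq, Subgroup.map_map]
    conv_rhs => rw [← Subgroup.mem_normalizer_iff_map_conj_eq.1 hr, Subgroup.map_map]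
    congr 1
  · intro l hl
    rw [Subgroup.mem_comap, show f l = 1 from (QuotientGroup.eq_one_iff l).mpr hl]
    exact Subgroup.one_mem _

/-- For an abelian normal `V` of prime power order the quotient loses a factor `≡ 1 (mod p)`. -/
theorem card_sylow_eq_mul (P : Sylow p G) (V : Subgroup G) [V.Normal] (hV : IsMulCommutative V) {q : ℕ} [Fact q.Prime]
    (hq : IsPGroup q V) :
    ∃ b : ℕ, Nat.card (Sylow p G) = Nat.card (Sylow p (G ⧸ V)) * q ^ b ∧ q ^ b % p = 1 % p := by
  classical
  set R := Subgroup.normalizer ((P : Subgroup G) : Set G) with hR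
  rw [card_sylow_quotient_eq_index P V, Sylow.card_eq_index_normalizer P]
  show ∃ b, R.index = _ * q ^ b ∧ _
  have e : R.relIndex (R ⊔ V) * (R ⊔ V).index = R.index := Subgroup.relIndex_mul_index le_sup_left
  by_cases hqp : q = p
  · subst hqp
    refine ⟨0, ?_, by simp⟩
    have hle : V ≤ (P : Subgroup G) := by
      have h := P.3 (P.2.to_sup_of_normal_right hq) le_sup_left
      exact le_sup_right.trans h.le
    rw [sup_eq_left.mpr (hle.trans Subgroup.le_normalizer), pow_zero, mul_one]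
  -- `P` acts on `V`; the fixed points are `R ⊓ V`
  letI act : MulAction (P : Subgroup G) V :=
    { smul := fun x v => ⟨(x : G) * v * (x : G)⁻¹, (inferInstance : V.Normal).conj_mem v v.2 x⟩
      one_smul := fun v => Subtype.ext (by show ((1 : (P : Subgroup G)) : G) * v * ((1 : (P : Subgroup G)) : G)⁻¹ = v; simp)
      mul_smul := fun x y v => Subtype.ext (by
        show ((x * y : (P : Subgroup G)) : G) * v * ((x * y : (P : Subgroup G)) : G)⁻¹ = (x : G) * ((y : G) * v * (y : G)⁻¹) * (x : G)⁻¹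
        simp [mul_assoc]) }
  have hfix : Nat.card (MulAction.fixedPoints (P : Subgroup G) V) = Nat.card (R ⊓ V : Subgroup G) := by
    refine Nat.card_congr
      { toFun := fun v => ⟨v.1.1, ?_, v.1.2⟩
        invFun := fun v => ⟨⟨v.1, v.2.2⟩, fun x => Subtype.ext ?_⟩
        left_inv := fun v => rfl
        right_inv := fun v => rfl }
    · show v.1.1 ∈ R
      have hc : v.1.1 ∈ Subgroup.centralizer ((P : Subgroup G) : Set G) := fun x hx =>
        mul_inv_eq_iff_eq_mul.mp (congrArg Subtype.val (v.2 ⟨x, hx⟩))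
      rw [hR, Subgroup.mem_normalizer_iff]
      intro y
      constructor
      · intro hy; rwa [← hc y hy, mul_inv_cancel_right]
      · intro hy
        have h := hc _ hy
        have e : v.1.1 * y * v.1.1⁻¹ = y := by
          have h1 : v.1.1 * y * v.1.1⁻¹ * v.1.1 = v.1.1 * (v.1.1 * y * v.1.1⁻¹) := h
          calc v.1.1 * y * v.1.1⁻¹ = v.1.1⁻¹ * (v.1.1 * (v.1.1 * y * v.1.1⁻¹)) := by group
            _ = y := by rw [← h1]; group
        rwa [e] at hy
    · show (x : G) * v.1 * (x : G)⁻¹ = v.1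
      have hx1 : (x : G) * v.1 * (x : G)⁻¹ * v.1⁻¹ ∈ (P : Subgroup G) := by
        have h := (Subgroup.mem_normalizer_iff.mp v.2.1 (x : G)⁻¹).mp (Subgroup.inv_mem _ x.2)
        have := Subgroup.mul_mem _ x.2 h
        simpa [mul_assoc] using this
      have hx2 : (x : G) * v.1 * (x : G)⁻¹ * v.1⁻¹ ∈ V :=
        V.mul_mem ((inferInstance : V.Normal).conj_mem v.1 v.2.2 x) (V.inv_mem v.2.2)
      have hd : Disjoint (P : Subgroup G) V := IsPGroup.disjoint_of_ne p q (Ne.symm hqp) _ _ P.2 hq
      exact mul_inv_eq_one.mp (Subgroup.disjoint_def.mp hd hx1 hx2)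
  have hmod : Nat.card V ≡ Nat.card (R ⊓ V : Subgroup G) [MOD p] := hfix ▸ P.2.card_modEq_card_fixedPoints V
  have key : Nat.card (R ⊓ V : Subgroup G) * R.relIndex (R ⊔ V) = Nat.card V := by
    have a1 := Subgroup.card_mul_index (R.subgroupOf (R ⊔ V))
    rw [Nat.card_congr (Subgroup.subgroupOfEquivOfLe (le_sup_left : R ≤ R ⊔ V)).toEquiv] at a1
    have a2 := Subgroup.card_mul_index (V.subgroupOf (R ⊔ V))
    rw [Nat.card_congr (Subgroup.subgroupOfEquivOfLe (le_sup_right : V ≤ R ⊔ V)).toEquiv] at a2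
    have a3 := Subgroup.card_mul_index (V.subgroupOf R)
    rw [← Subgroup.inf_subgroupOf_left, Nat.card_congr (Subgroup.subgroupOfEquivOfLe (inf_le_left : R ⊓ V ≤ R)).toEquiv] at a3
    rw [Subgroup.inf_subgroupOf_left] at a3
    change _ * V.relIndex (R ⊔ V) = _ at a2
    change _ * R.relIndex (R ⊔ V) = _ at a1
    change _ * V.relIndex R = _ at a3
    rw [Subgroup.relIndex_sup_right] at a2
    refine Nat.eq_of_mul_eq_mul_left (show 0 < V.relIndex R from Nat.pos_of_ne_zero Subgroup.index_ne_zero_of_finite) ?_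
    calc V.relIndex R * (Nat.card (R ⊓ V : Subgroup G) * R.relIndex (R ⊔ V))
        = (Nat.card (R ⊓ V : Subgroup G) * V.relIndex R) * R.relIndex (R ⊔ V) := by ring
      _ = Nat.card (R ⊔ V : Subgroup G) := by rw [a3, a1]
      _ = _ := by rw [← a2]; ring
  obtain ⟨n, hn⟩ := hq.exists_card_eq
  obtain ⟨b, -, hb⟩ := (Nat.dvd_prime_pow (Fact.out : q.Prime)).mp (hn ▸ Dvd.intro_left _ key : R.relIndex (R ⊔ V) ∣ q ^ n)
  refine ⟨b, by rw [← e, hb, mul_comm], ?_⟩
  rw [← hb]
  have hcop : (Nat.card (R ⊓ V : Subgroup G)).Coprime p := by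
    refine (Nat.Coprime.coprime_dvd_left (hn ▸ Dvd.intro _ key) ?_)
    exact Nat.Coprime.pow_left n ((Nat.coprime_primes Fact.out Fact.out).mpr hqp)
  have h2 : Nat.card (R ⊓ V : Subgroup G) * R.relIndex (R ⊔ V) ≡ Nat.card (R ⊓ V : Subgroup G) * 1 [MOD p] := by
    rw [key, mul_one]; exact hmod
  exact Nat.ModEq.cancel_left_of_coprime hcop.symm h2

end CfsgLib.GroupB.SylowQuot
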